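import Mathlib

/-!
# Brauer–Wielandt order formula, abelian case

For commuting additive endomorphisms `x, y` of a finite abelian group `V` with `x^p = y^p = 1`
and `V` without `p`-torsion:
`|Fix x| * ∏_{i<p} |Fix (x^i y)| = |V| * |Fix x ∩ Fix y|^p`.
-/

set_option autoImplicit false

namespace Cfsg.Agent.Lib.Helper90

section ring
variable {R : Type*} [Ring R]

/-- The norm element `1 + g + ... + g^(p-1)`. -/
def nrm (p : ℕ) (g : R) : R := ∑ k ∈ Finset.range p, g ^ k

theorem mul_nrm {p : ℕ} {g : R} (hg : g ^ p = 1) : g * nrm p g = nrm p g := by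
  unfold nrm
  rw [Finset.mul_sum]
  have h1 : ∑ k ∈ Finset.range p, g * g ^ k = ∑ k ∈ Finset.range p, g ^ (k + 1) := by
    apply Finset.sum_congr rfl
    intro k _
    rw [pow_succ']
  rw [h1]
  have h2 := Finset.sum_range_succ (fun k => g ^ k) p
  have h3 := Finset.sum_range_succ' (fun k => g ^ k) p
  rw [h2] at h3
  simp only [hg, pow_zero] at h3
  exact (add_right_cancel h3).symm

theorem sum_pow_mul_eq {p : ℕ} (hp : p.Prime) {x : R} (hx : x ^ p = 1) {k : ℕ} (hk0 : 0 < k)
    (hkp : k < p) :
    ∑ i ∈ Finset.range p, x ^ (i * k) = ∑ i ∈ Finset.range p, x ^ i := by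
  have hcop : Nat.gcd p k = 1 :=
    (Nat.Prime.coprime_iff_not_dvd hp).2 (Nat.not_dvd_of_pos_of_lt hk0 hkp)
  have hinj : ∀ i ∈ Finset.range p, ∀ j ∈ Finset.range p, i * k % p = j * k % p → i = j := by
    intro i hi j hj hij
    have hi' : i < p := Finset.mem_range.1 hi
    have hj' : j < p := Finset.mem_range.1 hj
    have h1 : i * k ≡ j * k [MOD p] := hij
    exact Nat.ModEq.eq_of_lt_of_lt (Nat.ModEq.cancel_right_of_coprime hcop h1) hi' hj'
  have himg : (Finset.range p).image (fun i => i * k % p) = Finset.range p := by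
    apply Finset.eq_of_subset_of_card_le
    · intro j hj
      obtain ⟨i, _, rfl⟩ := Finset.mem_image.1 hj
      exact Finset.mem_range.2 (Nat.mod_lt _ hp.pos)
    · rw [Finset.card_image_of_injOn (fun i hi j hj h => hinj i hi j hj h)]
  calc ∑ i ∈ Finset.range p, x ^ (i * k) = ∑ i ∈ Finset.range p, x ^ (i * k % p) := by
        apply Finset.sum_congr rfl
        intro i _
        exact pow_eq_pow_mod _ hx
    _ = ∑ j ∈ (Finset.range p).image (fun i => i * k % p), x ^ j := by
        rw [Finset.sum_image hinj]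
    _ = _ := by rw [himg]

theorem nrm_identity {p : ℕ} (hp : p.Prime) {x y : R} (hxy : Commute x y) (hx : x ^ p = 1) :
    ∑ i ∈ Finset.range p, nrm p (x ^ i * y) + nrm p x = (p : R) + nrm p x * nrm p y := by
  have hsplit : ∀ F : ℕ → R, ∑ k ∈ Finset.range p, F k = F 0 + ∑ k ∈ Finset.Ico 1 p, F k := by
    intro F
    rw [Finset.range_eq_Ico, Finset.sum_eq_sum_Ico_succ_bot hp.pos]
  have h1 : ∀ i, nrm p (x ^ i * y) = ∑ k ∈ Finset.range p, x ^ (i * k) * y ^ k := by
    intro i
    unfold nrm
    apply Finset.sum_congr rfl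
    intro k _
    rw [(hxy.pow_left i).mul_pow, ← pow_mul]
  have h2 : ∑ i ∈ Finset.range p, nrm p (x ^ i * y)
      = ∑ k ∈ Finset.range p, (∑ i ∈ Finset.range p, x ^ (i * k)) * y ^ k := by
    simp only [h1]
    rw [Finset.sum_comm]
    apply Finset.sum_congr rfl
    intro k _
    rw [Finset.sum_mul]
  have h3 : ∑ k ∈ Finset.range p, (∑ i ∈ Finset.range p, x ^ (i * k)) * y ^ k
      = (p : R) + ∑ k ∈ Finset.Ico 1 p, nrm p x * y ^ k := by
    rw [hsplit (fun k => (∑ i ∈ Finset.range p, x ^ (i * k)) * y ^ k)]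
    congr 1
    · simp
    · apply Finset.sum_congr rfl
      intro k hk
      obtain ⟨hk1, hk2⟩ := Finset.mem_Ico.1 hk
      rw [sum_pow_mul_eq hp hx hk1 hk2]
      rfl
  have h4 : nrm p x * nrm p y = nrm p x + ∑ k ∈ Finset.Ico 1 p, nrm p x * y ^ k := by
    have h5 : nrm p x * nrm p y = ∑ k ∈ Finset.range p, nrm p x * y ^ k := by
      conv_lhs => rw [show nrm p y = ∑ k ∈ Finset.range p, y ^ k from rfl]
      rw [Finset.mul_sum]
    rw [h5, hsplit (fun k => nrm p x * y ^ k)]
    simp
  rw [h2, h3, h4]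
  abel

end ring

section module
variable {V : Type*} [AddCommGroup V]

/-- Fixed points of an additive endomorphism. -/
def fixg (g : AddMonoid.End V) : AddSubgroup V where
  carrier := {v | g v = v}
  add_mem' := by
    intro a b ha hb
    show g (a + b) = a + b
    have ha' : g a = a := ha
    have hb' : g b = b := hb
    rw [map_add, ha', hb']
  zero_mem' := map_zero g
  neg_mem' := by
    intro a ha
    show g (-a) = -a
    have ha' : g a = a := ha
    rw [map_neg, ha']

theorem mem_fixg {g : AddMonoid.End V} {v : V} : v ∈ fixg g ↔ g v = v := Iff.rfl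

theorem nrm_apply (p : ℕ) (g : AddMonoid.End V) (v : V) :
    nrm p g v = ∑ k ∈ Finset.range p, (g ^ k) v :=
  AddMonoidHom.finsetSum_apply _ _ _

theorem pow_apply_of_fixed {g : AddMonoid.End V} {v : V} (h : g v = v) (k : ℕ) :
    (g ^ k) v = v := by
  induction k with
  | zero => simp
  | succ k ih =>
    rw [pow_succ]
    show (g ^ k) (g v) = v
    rw [h, ih]

theorem nrm_mem_fixg {p : ℕ} {g : AddMonoid.End V} (hg : g ^ p = 1) (v : V) :
    nrm p g v ∈ fixg g := by
  have h : (g * nrm p g) v = nrm p g v := by rw [mul_nrm hg]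
  exact h

theorem nrm_of_fixed {p : ℕ} {g : AddMonoid.End V} {v : V} (h : g v = v) :
    nrm p g v = p • v := by
  rw [nrm_apply, Finset.sum_congr rfl (fun k _ => pow_apply_of_fixed h k), Finset.sum_const,
    Finset.card_range]

theorem nrm_mem_fixg_of_commute {p : ℕ} {g h : AddMonoid.End V} (hc : Commute h g) {v : V}
    (hv : h v = v) : nrm p g v ∈ fixg h := by
  have h1 : Commute h (nrm p g) := by
    unfold nrm
    exact Commute.sum_right _ _ _ (fun k _ => hc.pow_right k)
  have h2 : (h * nrm p g) v = (nrm p g * h) v := by rw [h1.eq]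
  have h3 : h (nrm p g v) = nrm p g (h v) := h2
  show h (nrm p g v) = nrm p g v
  rw [h3, hv]

theorem fixed_of_pow_fixed {p : ℕ} (hp : p.Prime) {x : AddMonoid.End V} (hx : x ^ p = 1) {d : ℕ}
    (hd0 : 0 < d) (hdp : d < p) {v : V} (h : (x ^ d) v = v) : x v = v := by
  have hcop : Nat.Coprime d p :=
    ((Nat.Prime.coprime_iff_not_dvd hp).2 (Nat.not_dvd_of_pos_of_lt hd0 hdp)).symm
  obtain ⟨e, -, he⟩ := Nat.exists_mul_mod_eq_one_of_coprime hcop hp.one_lt
  have h1 : ((x ^ d) ^ e) v = v := pow_apply_of_fixed h e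
  rw [← pow_mul, pow_eq_pow_mod (d * e) hx, he, pow_one] at h1
  exact h1


/-- **Brauer–Wielandt formula, abelian case.** -/
theorem card_fix_formula {p : ℕ} (hp : p.Prime) [Finite V] (hV : ∀ v : V, p • v = 0 → v = 0)
    {x y : AddMonoid.End V} (hxy : Commute x y) (hx : x ^ p = 1) (hy : y ^ p = 1) :
    Nat.card (fixg x) * ∏ i ∈ Finset.range p, Nat.card (fixg (x ^ i * y))
      = Nat.card V * Nat.card (fixg x ⊓ fixg y : AddSubgroup V) ^ p := by
  classical
  obtain ⟨z, hz⟩ : ∃ z : ℕ → AddMonoid.End V, z = fun i => x ^ i * y := ⟨_, rfl⟩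
  have hzi : ∀ i, z i = x ^ i * y := fun i => by rw [hz]
  have hzp : ∀ i, (z i) ^ p = 1 := by
    intro i
    rw [hzi, (hxy.pow_left i).mul_pow, ← pow_mul, mul_comm i p, pow_mul, hx, one_pow, hy, one_mul]
  have hzx : ∀ i, Commute (z i) x := by
    intro i
    rw [hzi]
    exact ((Commute.refl x).pow_left i).mul_left hxy.symm
  have hzz : ∀ i j, Commute (z i) (z j) := by
    intro i j
    rw [hzi, hzi]
    exact ((Commute.pow_pow_self x i j).mul_right (hxy.pow_left i)).mul_left
      ((hxy.symm.pow_right j).mul_right (Commute.refl y))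
  -- relations among fixed points
  have hC1 : ∀ i v, x v = v → (z i) v = v → y v = v := by
    intro i v hxv hzv
    have h1 : (x ^ i * y) v = (y * x ^ i) v := by rw [(hxy.pow_left i).eq]
    have h2 : (x ^ i * y) v = y ((x ^ i) v) := h1
    rw [pow_apply_of_fixed hxv, ← hzi, hzv] at h2
    exact h2.symm
  have hC2 : ∀ i v, x v = v → y v = v → (z i) v = v := by
    intro i v hxv hyv
    rw [hzi]
    show (x ^ i) (y v) = v
    rw [hyv, pow_apply_of_fixed hxv]
  have haux : ∀ i j, i < j → j < p → ∀ v, (z i) v = v → (z j) v = v → x v = v := by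
    intro i j hij hjp v hvi hvj
    have hd : x ^ j = x ^ (j - i) * x ^ i := by rw [← pow_add, Nat.sub_add_cancel hij.le]
    have h1 : (z j) v = (x ^ (j - i)) ((z i) v) := by
      rw [hzi, hzi, hd, mul_assoc]
      rfl
    rw [hvi] at h1
    exact fixed_of_pow_fixed hp hx (Nat.sub_pos_of_lt hij) (by omega) (h1.symm.trans hvj)
  have hC3 : ∀ i j, i < p → j < p → i ≠ j → ∀ v, (z i) v = v → (z j) v = v → x v = v := by
    intro i j hi hj hij v hvi hvj
    rcases lt_or_gt_of_ne hij with h | h
    · exact haux i j h hj v hvi hvj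
    · exact haux j i h hi v hvj hvi
  -- divisibility by p
  have hdiv : ∀ (S : AddSubgroup V) (v : V), p • v ∈ S → v ∈ S := by
    intro S v hv
    have hinj : Function.Injective (fun s : S => p • s) := by
      intro a b hab
      have h1 : p • (a : V) = p • (b : V) := congrArg Subtype.val hab
      have h2 : p • ((a : V) - b) = 0 := by rw [smul_sub, h1, sub_self]
      exact Subtype.ext (sub_eq_zero.1 (hV _ h2))
    obtain ⟨s, hs⟩ := Finite.surjective_of_injective hinj ⟨p • v, hv⟩
    have h1 : p • (s : V) = p • v := congrArg Subtype.val hs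
    have h2 : p • (v - s) = 0 := by rw [smul_sub, h1, sub_self]
    have h3 : v = s := sub_eq_zero.1 (hV _ h2)
    rw [h3]
    exact s.2
  have hsurjV : ∀ v : V, ∃ v' : V, p • v' = v := by
    have hinj : Function.Injective (fun s : V => p • s) := by
      intro a b hab
      have h1 : p • a = p • b := hab
      have h2 : p • (a - b) = 0 := by rw [smul_sub, h1, sub_self]
      exact sub_eq_zero.1 (hV _ h2)
    exact fun v => Finite.surjective_of_injective hinj v
  -- the sum map
  let μ : (fixg x) × (∀ i : Fin p, fixg (z i)) →+ V :=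
    { toFun := fun a => (a.1 : V) + ∑ i, (a.2 i : V)
      map_zero' := by simp
      map_add' := by
        intro a b
        simp only [Prod.fst_add, Prod.snd_add, Pi.add_apply, AddSubgroup.coe_add,
          Finset.sum_add_distrib]
        abel }
  have hμ : ∀ a : (fixg x) × (∀ i : Fin p, fixg (z i)), μ a = (a.1 : V) + ∑ i, (a.2 i : V) :=
    fun a => rfl
  have hsurj : Function.Surjective μ := by
    intro v
    obtain ⟨v', hv'⟩ := hsurjV v
    have hid := congrArg (fun f : AddMonoid.End V => f v') (nrm_identity hp hxy hx)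
    have hid2 : ∑ i ∈ Finset.range p, nrm p (z i) v' + nrm p x v'
        = p • v' + nrm p x (nrm p y v') := by
      have e1 : (∑ i ∈ Finset.range p, nrm p (x ^ i * y) + nrm p x) v'
          = ∑ i ∈ Finset.range p, nrm p (z i) v' + nrm p x v' := by
        have e0 : (∑ i ∈ Finset.range p, nrm p (x ^ i * y)) v'
            = ∑ i ∈ Finset.range p, nrm p (x ^ i * y) v' := AddMonoidHom.finsetSum_apply _ _ _
        show (∑ i ∈ Finset.range p, nrm p (x ^ i * y)) v' + nrm p x v' = _
        rw [e0]
        simp only [hzi]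
      have e2 : ((p : AddMonoid.End V) + nrm p x * nrm p y) v' = p • v' + nrm p x (nrm p y v') :=
        rfl
      rw [← e1, ← e2]
      exact hid
    refine ⟨(⟨nrm p x v' - nrm p x (nrm p y v'),
      (fixg x).sub_mem (nrm_mem_fixg hx _) (nrm_mem_fixg hx _)⟩,
      fun i => ⟨nrm p (z i) v', nrm_mem_fixg (hzp i) v'⟩), ?_⟩
    rw [hμ]
    show nrm p x v' - nrm p x (nrm p y v') + ∑ i : Fin p, nrm p (z i) v' = v
    rw [Fin.sum_univ_eq_sum_range (fun i => nrm p (z i) v') p, ← hv']
    have : ∑ i ∈ Finset.range p, nrm p (z i) v' = p • v' + nrm p x (nrm p y v') - nrm p x v' :=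
      eq_sub_of_add_eq hid2
    rw [this]
    abel
  -- kernel
  have hkerC : ∀ a : (fixg x) × (∀ i : Fin p, fixg (z i)), μ a = 0 →
      ∀ j : Fin p, ((a.2 j : V)) ∈ (fixg x ⊓ fixg y : AddSubgroup V) := by
    intro a ha j
    rw [hμ] at ha
    apply hdiv
    have hwj : (z j) (a.2 j : V) = (a.2 j : V) := (a.2 j).2
    rw [← nrm_of_fixed (p := p) hwj]
    have h1 : nrm p (z j) ((a.1 : V) + ∑ i, (a.2 i : V)) = nrm p (z j) 0 := by rw [ha]
    rw [map_add, map_sum, map_zero, ← Finset.add_sum_erase _ _ (Finset.mem_univ j)] at h1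
    have h2 : nrm p (z j) (a.2 j : V)
        = -(nrm p (z j) (a.1 : V) + ∑ i ∈ Finset.univ.erase j, nrm p (z j) (a.2 i : V)) := by
      rw [eq_neg_iff_add_eq_zero, ← h1]
      abel
    rw [h2]
    have hmemC : ∀ v : V, x v = v → nrm p (z j) v ∈ (fixg x ⊓ fixg y : AddSubgroup V) := by
      intro v hv
      have hx' : x (nrm p (z j) v) = nrm p (z j) v :=
        nrm_mem_fixg_of_commute (hzx j).symm hv
      have hz' : (z j) (nrm p (z j) v) = nrm p (z j) v := nrm_mem_fixg (hzp j) v
      exact ⟨hx', hC1 j _ hx' hz'⟩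
    apply AddSubgroup.neg_mem
    apply AddSubgroup.add_mem
    · exact hmemC _ a.1.2
    · apply AddSubgroup.sum_mem
      intro i hi
      have hij : i ≠ j := Finset.ne_of_mem_erase hi
      have hwi : (z i) (a.2 i : V) = (a.2 i : V) := (a.2 i).2
      have hzi' : (z i) (nrm p (z j) (a.2 i : V)) = nrm p (z j) (a.2 i : V) :=
        nrm_mem_fixg_of_commute (hzz i j) hwi
      have hzj' : (z j) (nrm p (z j) (a.2 i : V)) = nrm p (z j) (a.2 i : V) :=
        nrm_mem_fixg (hzp j) _
      have hx' : x (nrm p (z j) (a.2 i : V)) = nrm p (z j) (a.2 i : V) :=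
        hC3 i j i.2 j.2 (fun h => hij (Fin.ext h)) _ hzi' hzj'
      exact ⟨hx', hC1 j _ hx' hzj'⟩
  have hkercard : Nat.card μ.ker = Nat.card (fixg x ⊓ fixg y : AddSubgroup V) ^ p := by
    have e : μ.ker ≃ (Fin p → (fixg x ⊓ fixg y : AddSubgroup V)) :=
      { toFun := fun a j => ⟨(a.1.2 j : V), hkerC a.1 a.2 j⟩
        invFun := fun c => ⟨(⟨-∑ i, (c i : V), (fixg x).neg_mem
            ((fixg x).sum_mem (fun i _ => (c i).2.1))⟩,
            fun i => ⟨(c i : V), hC2 i _ (c i).2.1 (c i).2.2⟩), by
              show μ _ = 0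
              rw [hμ]
              show -∑ i, (c i : V) + ∑ i, (c i : V) = 0
              abel⟩
        left_inv := by
          intro a
          apply Subtype.ext
          apply Prod.ext
          · apply Subtype.ext
            have ha : μ a.1 = 0 := a.2
            rw [hμ] at ha
            show -∑ i, (a.1.2 i : V) = (a.1.1 : V)
            rw [neg_eq_iff_add_eq_zero, add_comm]
            exact ha
          · rfl
        right_inv := by
          intro c
          rfl }
    rw [Nat.card_congr e, Nat.card_fun, Nat.card_fin]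
  have hrange : Nat.card μ.range = Nat.card V := by
    rw [AddMonoidHom.range_eq_top.2 hsurj, AddSubgroup.card_top]
  have htot : Nat.card ((fixg x) × (∀ i : Fin p, fixg (z i)))
      = Nat.card μ.ker * Nat.card μ.range := by
    rw [← μ.ker.card_mul_index, AddSubgroup.index_ker]
  rw [Nat.card_prod, Nat.card_pi, hkercard, hrange,
    Fin.prod_univ_eq_prod_range (fun i => Nat.card (fixg (z i))) p] at htot
  simp only [hzi] at htot
  rw [htot, mul_comm]

end module

end Cfsg.Agent.Lib.Helper90
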