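import Mathlib
import Cfsg.Agent.Lib.Helper90.BWAbelian
import Cfsg.Agent.Lib.Helper90.SylowAux
import Cfsg.Agent.S0022
import Cfsg.Agent.S0023
import Cfsg.Agent.S0024
import Cfsg.Agent.S0025

/-!
# Brauer–Wielandt order formula for a coprime action of `Z_p × Z_p`

If commuting `x, y` with `x^p = y^p = 1` normalize a subgroup `K` of order prime to `p`, then
`|C_K(x)| * ∏_{i<p} |C_K(x^i y)| = |K| * |C_K(x, y)|^p`.
-/

set_option autoImplicit false
open scoped Pointwise

namespace Cfsg.Agent.Lib.Helper90

variable {H : Type*} [Group H]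

/-- Conjugation by an element of the normalizer, as an endomorphism of `K`. -/
def conjHom (K : Subgroup H) (g : ↥(Subgroup.normalizer (K : Set H))) : ↥K →* ↥K where
  toFun := fun k => ⟨(g : H) * k * (g : H)⁻¹, (Subgroup.mem_normalizer_iff.1 g.2 k).1 k.2⟩
  map_one' := by
    apply Subtype.ext
    simp
  map_mul' := by
    intro a b
    apply Subtype.ext
    simp [mul_assoc]

theorem conjHom_one (K : Subgroup H) : conjHom K 1 = MonoidHom.id ↥K := by
  apply MonoidHom.ext
  intro k
  apply Subtype.ext
  show ((1 : ↥(Subgroup.normalizer (K : Set H))) : H) * k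
    * ((1 : ↥(Subgroup.normalizer (K : Set H))) : H)⁻¹ = k
  simp

theorem conjHom_mul (K : Subgroup H) (a b : ↥(Subgroup.normalizer (K : Set H))) :
    conjHom K (a * b) = (conjHom K a).comp (conjHom K b) := by
  apply MonoidHom.ext
  intro k
  apply Subtype.ext
  show ((a * b : ↥(Subgroup.normalizer (K : Set H))) : H) * k
    * ((a * b : ↥(Subgroup.normalizer (K : Set H))) : H)⁻¹
    = (a : H) * ((b : H) * k * (b : H)⁻¹) * (a : H)⁻¹
  rw [Subgroup.coe_mul]
  group

/-- The endomorphism of the abelianization of `K` induced by conjugation. -/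
def thetaFun (K : Subgroup H) (g : ↥(Subgroup.normalizer (K : Set H))) :
    AddMonoid.End (Additive (Abelianization ↥K)) :=
  MonoidHom.toAdditive (Abelianization.map (conjHom K g))

theorem thetaFun_one (K : Subgroup H) : thetaFun K 1 = 1 := by
  unfold thetaFun
  rw [conjHom_one, Abelianization.map_id]
  rfl

theorem thetaFun_mul (K : Subgroup H) (a b : ↥(Subgroup.normalizer (K : Set H))) :
    thetaFun K (a * b) = thetaFun K a * thetaFun K b := by
  unfold thetaFun
  rw [conjHom_mul, ← Abelianization.map_comp]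
  rfl

/-- The action of the normalizer of `K` on the abelianization of `K` (written additively). -/
def thetaK (K : Subgroup H) :
    ↥(Subgroup.normalizer (K : Set H)) →* AddMonoid.End (Additive (Abelianization ↥K)) where
  toFun := thetaFun K
  map_one' := thetaFun_one K
  map_mul' := thetaFun_mul K

theorem thetaK_apply (K : Subgroup H) (g : ↥(Subgroup.normalizer (K : Set H))) (k : ↥K) :
    thetaK K g (Additive.ofMul (Abelianization.of k)) =
      Additive.ofMul (Abelianization.of
        (⟨(g : H) * k * (g : H)⁻¹, (Subgroup.mem_normalizer_iff.1 g.2 k).1 k.2⟩ : ↥K)) := rfl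

theorem abelianization_of_eq_iff (K : Subgroup H) (a b : ↥K) :
    (Abelianization.of a : Abelianization ↥K) = Abelianization.of b ↔
      (a : H) * (b : H)⁻¹ ∈ ⁅K, K⁆ := by
  have h1 : (Abelianization.of a : Abelianization ↥K) = Abelianization.of b ↔
      a * b⁻¹ ∈ commutator ↥K := by
    rw [← Abelianization.ker_of, MonoidHom.mem_ker, map_mul, map_inv, mul_inv_eq_one]
  rw [h1, ← Subgroup.map_subtype_commutator]
  exact (Subgroup.mem_map_iff_mem K.subtype_injective (K := commutator ↥K) (x := a * b⁻¹)).symm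

theorem thetaK_fixed_iff (K : Subgroup H) (g : ↥(Subgroup.normalizer (K : Set H))) (k : ↥K) :
    thetaK K g (Additive.ofMul (Abelianization.of k)) = Additive.ofMul (Abelianization.of k) ↔
      (g : H) * k * (g : H)⁻¹ * (k : H)⁻¹ ∈ ⁅K, K⁆ := by
  rw [thetaK_apply, Additive.ofMul.injective.eq_iff, abelianization_of_eq_iff]

/-- The stabilizer of a vector of the abelianization. -/
def thetaStab (K : Subgroup H) (v : Additive (Abelianization ↥K)) :
    Subgroup ↥(Subgroup.normalizer (K : Set H)) where
  carrier := {g | thetaK K g v = v}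
  mul_mem' := by
    intro a b ha hb
    have ha' : thetaK K a v = v := ha
    have hb' : thetaK K b v = v := hb
    show thetaK K (a * b) v = v
    rw [map_mul]
    show thetaK K a (thetaK K b v) = v
    rw [hb', ha']
  one_mem' := by
    show thetaK K 1 v = v
    rw [map_one]
    rfl
  inv_mem' := by
    intro a ha
    have ha' : thetaK K a v = v := ha
    show thetaK K a⁻¹ v = v
    have h1 : (thetaK K a⁻¹ * thetaK K a) v = v := by
      rw [← map_mul, inv_mul_cancel, map_one]
      rfl
    have h2 : thetaK K a⁻¹ (thetaK K a v) = v := h1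
    rw [ha'] at h2
    exact h2

theorem thetaK_fixed_closure (K : Subgroup H) (S : Set H)
    (hS : S ⊆ (Subgroup.normalizer (K : Set H) : Set H)) (v : Additive (Abelianization ↥K))
    (hv : ∀ s (hs : s ∈ S), thetaK K ⟨s, hS hs⟩ v = v) :
    ∀ a (ha : a ∈ Subgroup.closure S),
      thetaK K ⟨a, (Subgroup.closure_le _).2 hS ha⟩ v = v := by
  have hle : Subgroup.closure S ≤
      (thetaStab K v).map (Subgroup.normalizer (K : Set H)).subtype := by
    rw [Subgroup.closure_le]
    intro s hs
    exact ⟨⟨s, hS hs⟩, hv s hs, rfl⟩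
  intro a ha
  obtain ⟨g, hg, hga⟩ := hle ha
  have : g = ⟨a, (Subgroup.closure_le _).2 hS ha⟩ := Subtype.ext hga
  rw [← this]
  exact hg

theorem mem_normalizer_commutator {K : Subgroup H} {g : H}
    (hg : g ∈ Subgroup.normalizer (K : Set H)) : g ∈ Subgroup.normalizer ((⁅K, K⁆ : Subgroup H) : Set H) := by
  rw [Subgroup.mem_normalizer_iff_map_conj_eq] at hg ⊢
  rw [Subgroup.map_commutator, hg]

theorem abelianization_of_eq_iff' (K : Subgroup H) (a b : ↥K) :
    (Abelianization.of a : Abelianization ↥K) = Abelianization.of b ↔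
      (a : H)⁻¹ * (b : H) ∈ ⁅K, K⁆ := by
  have h1 : (Abelianization.of a : Abelianization ↥K) = Abelianization.of b ↔
      a⁻¹ * b ∈ commutator ↥K := by
    rw [← Abelianization.ker_of, MonoidHom.mem_ker, map_mul, map_inv, inv_mul_eq_one]
  rw [h1, ← Subgroup.map_subtype_commutator]
  exact (Subgroup.mem_map_iff_mem K.subtype_injective (K := commutator ↥K) (x := a⁻¹ * b)).symm

theorem coprime_solvable_of_isPGroup {p : ℕ} [Fact p.Prime] [Finite H] (K A : Subgroup H)
    (hA : IsPGroup p A) (hK : ¬ p ∣ Nat.card K) :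
    (Nat.card A).Coprime (Nat.card K) ∧ Group.IsSolvable A := by
  have hp : p.Prime := Fact.out
  obtain ⟨n, hn⟩ := IsPGroup.iff_card.1 hA
  refine ⟨?_, ?_⟩
  · rw [hn]
    exact Nat.Coprime.pow_left n ((Nat.Prime.coprime_iff_not_dvd hp).2 hK)
  · have := hA.isNilpotent
    infer_instance

/-- Fixed points on the abelianization, for a coprime action. -/
theorem card_centralizer_quot {p : ℕ} [Fact p.Prime] [Finite H] (K A : Subgroup H)
    (hAK : A ≤ Subgroup.normalizer (K : Set H)) (hA : IsPGroup p A) (hK : ¬ p ∣ Nat.card K)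
    (S : AddSubgroup (Additive (Abelianization ↥K)))
    (hS : ∀ v, v ∈ S ↔ ∀ a (ha : a ∈ A), thetaK K ⟨a, hAK ha⟩ v = v) :
    Nat.card ↥(K ⊓ Subgroup.centralizer (A : Set H))
      = Nat.card ↥(⁅K, K⁆ ⊓ Subgroup.centralizer (A : Set H)) * Nat.card S := by
  obtain ⟨hcop, hsolv⟩ := coprime_solvable_of_isPGroup K A hA hK
  have hNK : ⁅K, K⁆ ≤ K := Subgroup.commutator_le_self K
  let f : ↥(K ⊓ Subgroup.centralizer (A : Set H)) →* Abelianization ↥K :=
    Abelianization.of.comp (Subgroup.inclusion inf_le_left)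
  have hf : ∀ c : ↥(K ⊓ Subgroup.centralizer (A : Set H)),
      f c = Abelianization.of (⟨(c : H), c.2.1⟩ : ↥K) := fun c => rfl
  have hker : f.ker = (⁅K, K⁆ ⊓ Subgroup.centralizer (A : Set H)).subgroupOf
      (K ⊓ Subgroup.centralizer (A : Set H)) := by
    ext c
    rw [MonoidHom.mem_ker, hf, Subgroup.mem_subgroupOf, Subgroup.mem_inf]
    have h1 : (Abelianization.of (⟨(c : H), c.2.1⟩ : ↥K) : Abelianization ↥K) = 1 ↔
        (c : H) ∈ ⁅K, K⁆ := by
      have h2 := abelianization_of_eq_iff K ⟨(c : H), c.2.1⟩ 1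
      rw [map_one] at h2
      rw [h2]
      simp
    rw [h1]
    exact ⟨fun h => ⟨h, c.2.2⟩, fun h => h.1⟩
  have hkercard : Nat.card f.ker = Nat.card ↥(⁅K, K⁆ ⊓ Subgroup.centralizer (A : Set H)) := by
    rw [hker]
    exact Nat.card_congr (Subgroup.subgroupOfEquivOfLe (inf_le_inf_right _ hNK)).toEquiv
  have hrangecard : Nat.card f.range = Nat.card S := by
    apply Nat.card_congr
    refine
      { toFun := fun r => ⟨Additive.ofMul (r : Abelianization ↥K), ?_⟩
        invFun := fun s => ⟨Additive.toMul (s : Additive (Abelianization ↥K)), ?_⟩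
        left_inv := fun r => rfl
        right_inv := fun s => rfl }
    · obtain ⟨c, hc⟩ := r.2
      rw [hS]
      intro a ha
      rw [← hc, hf, thetaK_fixed_iff]
      have hcomm : a * (c : H) = (c : H) * a := Subgroup.mem_centralizer_iff.1 c.2.2 a ha
      have h1 : a * (c : H) * a⁻¹ * (c : H)⁻¹ = 1 := by
        rw [hcomm]
        group
      show a * (c : H) * a⁻¹ * (c : H)⁻¹ ∈ ⁅K, K⁆
      rw [h1]
      exact Subgroup.one_mem _
    · obtain ⟨k, hk⟩ := QuotientGroup.mk_surjective
        (Additive.toMul (s : Additive (Abelianization ↥K)))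
      have hk' : Additive.ofMul (Abelianization.of k) = (s : Additive (Abelianization ↥K)) := by
        show Additive.ofMul (QuotientGroup.mk k) = _
        rw [hk]
        rfl
      have hs := (hS _).1 s.2
      have hfix : ∀ a ∈ A, a * (k : H) * a⁻¹ * (k : H)⁻¹ ∈ ⁅K, K⁆ := by
        intro a ha
        have h1 := hs a ha
        rw [← hk'] at h1
        exact (thetaK_fixed_iff K ⟨a, hAK ha⟩ k).1 h1
      obtain ⟨c, hc, hkc⟩ := Cfsg.Agent.S0022.result A K hAK hcop (Or.inl hsolv) ⁅K, K⁆ hNK
        (fun g hg => mem_normalizer_commutator (Subgroup.le_normalizer hg))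
        (fun a ha => mem_normalizer_commutator (hAK ha)) (k : H) k.2 hfix
      refine ⟨⟨c, hc⟩, ?_⟩
      rw [hf]
      have h2 : (Abelianization.of k : Abelianization ↥K)
          = Abelianization.of (⟨c, hc.1⟩ : ↥K) :=
        (abelianization_of_eq_iff' K k ⟨c, hc.1⟩).2 hkc
      rw [← h2]
      exact hk
  rw [← f.ker.card_mul_index, Subgroup.index_ker, hkercard, hrangecard]

theorem card_centralizer_quot_closure {p : ℕ} [Fact p.Prime] [Finite H] (K : Subgroup H)
    (S₀ : Set H) (hS₀ : S₀ ⊆ (Subgroup.normalizer (K : Set H) : Set H))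
    (hA : IsPGroup p (Subgroup.closure S₀)) (hK : ¬ p ∣ Nat.card K)
    (S : AddSubgroup (Additive (Abelianization ↥K)))
    (hS : ∀ v, v ∈ S ↔ ∀ s (hs : s ∈ S₀), thetaK K ⟨s, hS₀ hs⟩ v = v) :
    Nat.card ↥(K ⊓ Subgroup.centralizer S₀)
      = Nat.card ↥(⁅K, K⁆ ⊓ Subgroup.centralizer S₀) * Nat.card S := by
  have h := card_centralizer_quot K (Subgroup.closure S₀) ((Subgroup.closure_le _).2 hS₀) hA hK S
    (fun v => ⟨fun hv => thetaK_fixed_closure K S₀ hS₀ v ((hS v).1 hv),
      fun h => (hS v).2 (fun s hs => h s (Subgroup.subset_closure hs))⟩)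
  rwa [Subgroup.centralizer_closure] at h

theorem isPGroup_closure_pair {p : ℕ} [Fact p.Prime] (x y : H) (hxy : x * y = y * x)
    (hx : x ^ p = 1) (hy : y ^ p = 1) : IsPGroup p (Subgroup.closure ({x, y} : Set H)) := by
  have h1 : Subgroup.closure ({x, y} : Set H) = Subgroup.zpowers x ⊔ Subgroup.zpowers y := by
    rw [Subgroup.zpowers_eq_closure, Subgroup.zpowers_eq_closure, ← Subgroup.closure_union]
    rfl
  rw [h1]
  apply IsPGroup.to_sup_of_normal_right' (isPGroup_zpowers x 1 (by rwa [pow_one]))
    (isPGroup_zpowers y 1 (by rwa [pow_one]))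
  rw [Subgroup.zpowers_le]
  apply Subgroup.centralizer_le_normalizer
  rw [Subgroup.mem_centralizer_iff]
  intro h hh
  obtain ⟨n, rfl⟩ := Subgroup.mem_zpowers_iff.1 hh
  exact (Commute.zpow_left (show Commute y x from hxy.symm) n).eq

/-- The Brauer–Wielandt formula, as a predicate of `K`. -/
def BWFormula (p : ℕ) (x y : H) (K : Subgroup H) : Prop :=
  Nat.card ↥(K ⊓ Subgroup.centralizer ({x} : Set H)) *
      ∏ i ∈ Finset.range p, Nat.card ↥(K ⊓ Subgroup.centralizer ({x ^ i * y} : Set H))
    = Nat.card ↥K * Nat.card ↥(K ⊓ Subgroup.centralizer ({x, y} : Set H)) ^ p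

theorem bw_solvable {p : ℕ} [Fact p.Prime] [Finite H] (x y : H) (hxy : x * y = y * x)
    (hx : x ^ p = 1) (hy : y ^ p = 1) :
    ∀ (n : ℕ) (K : Subgroup H), Nat.card K ≤ n → Group.IsSolvable K →
      x ∈ Subgroup.normalizer (K : Set H) → y ∈ Subgroup.normalizer (K : Set H) →
      ¬ p ∣ Nat.card K → BWFormula p x y K := by
  have hp : p.Prime := Fact.out
  have hP := isPGroup_closure_pair x y hxy hx hy
  have hxP : x ∈ Subgroup.closure ({x, y} : Set H) := Subgroup.subset_closure (by simp)
  have hyP : y ∈ Subgroup.closure ({x, y} : Set H) := Subgroup.subset_closure (by simp)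
  intro n
  induction n with
  | zero =>
    intro K hn
    exfalso
    have := Nat.card_pos (α := K)
    omega
  | succ n ih =>
    intro K hn hsol hxK hyK hpK
    by_cases hbot : K = ⊥
    · subst hbot
      unfold BWFormula
      simp
    · have hNK : ⁅K, K⁆ ≤ K := Subgroup.commutator_le_self K
      have hnt : Nontrivial ↥K := (Subgroup.nontrivial_iff_ne_bot K).2 hbot
      have hlt : commutator ↥K < ⊤ := Group.IsSolvable.commutator_lt_top_of_nontrivial ↥K
      have hNcard : Nat.card ↥(⁅K, K⁆ : Subgroup H) = Nat.card ↥(commutator ↥K) := by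
        rw [← Subgroup.map_subtype_commutator]
        exact (Nat.card_congr
          (Subgroup.equivMapOfInjective _ _ K.subtype_injective).toEquiv).symm
      have hVcard : Nat.card (Additive (Abelianization ↥K)) = (commutator ↥K).index := by
        rw [Subgroup.index_eq_card]
        rfl
      have hKcard : Nat.card ↥K = Nat.card ↥(⁅K, K⁆ : Subgroup H)
          * Nat.card (Additive (Abelianization ↥K)) := by
        rw [hNcard, hVcard, Subgroup.card_mul_index]
      have hNlt : Nat.card ↥(⁅K, K⁆ : Subgroup H) < Nat.card ↥K := by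
        rw [hNcard]
        apply lt_of_le_of_ne (Subgroup.card_le_card_group _)
        intro h
        exact hlt.ne ((Subgroup.card_eq_iff_eq_top _).1 h)
      have hNsol : Group.IsSolvable ↥(⁅K, K⁆ : Subgroup H) :=
        Group.isSolvable_of_isSolvable_injective (Subgroup.inclusion_injective hNK)
      have hNp : ¬ p ∣ Nat.card ↥(⁅K, K⁆ : Subgroup H) :=
        fun h => hpK (h.trans (Subgroup.card_dvd_of_le hNK))
      have ihN := ih ⁅K, K⁆ (by omega) hNsol (mem_normalizer_commutator hxK)
        (mem_normalizer_commutator hyK) hNp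
      unfold BWFormula at ihN ⊢
      -- the abelian quotient
      have hXY : Commute (thetaK K ⟨x, hxK⟩) (thetaK K ⟨y, hyK⟩) := by
        show thetaK K ⟨x, hxK⟩ * thetaK K ⟨y, hyK⟩ = thetaK K ⟨y, hyK⟩ * thetaK K ⟨x, hxK⟩
        rw [← map_mul, ← map_mul]
        congr 1
        exact Subtype.ext hxy
      have hXp : (thetaK K ⟨x, hxK⟩) ^ p = 1 := by
        rw [← map_pow]
        have : (⟨x, hxK⟩ : ↥(Subgroup.normalizer (K : Set H))) ^ p = 1 := Subtype.ext hx
        rw [this, map_one]
      have hYp : (thetaK K ⟨y, hyK⟩) ^ p = 1 := by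
        rw [← map_pow]
        have : (⟨y, hyK⟩ : ↥(Subgroup.normalizer (K : Set H))) ^ p = 1 := Subtype.ext hy
        rw [this, map_one]
      have hfinV : Finite (Additive (Abelianization ↥K)) := by
        show Finite (↥K ⧸ commutator ↥K)
        infer_instance
      have hV : ∀ v : Additive (Abelianization ↥K), p • v = 0 → v = 0 := by
        intro v hv
        have h1 : addOrderOf v ∣ p := addOrderOf_dvd_of_nsmul_eq_zero hv
        have h2 : addOrderOf v ∣ Nat.card (Additive (Abelianization ↥K)) :=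
          addOrderOf_dvd_natCard v
        have h3 : Nat.card (Additive (Abelianization ↥K)) ∣ Nat.card ↥K :=
          Dvd.intro_left _ hKcard.symm
        have h4 : Nat.Coprime p (Nat.card ↥K) := (Nat.Prime.coprime_iff_not_dvd hp).2 hpK
        have h5 : addOrderOf v ∣ 1 := by
          rw [← h4]
          exact Nat.dvd_gcd h1 (h2.trans h3)
        exact AddMonoid.addOrderOf_eq_one_iff.1 (Nat.dvd_one.1 h5)
      have hab := card_fix_formula hp hV hXY hXp hYp
      -- the individual centralizers
      have hg_card : ∀ g (hg : g ∈ Subgroup.normalizer (K : Set H)),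
          g ∈ Subgroup.closure ({x, y} : Set H) →
          Nat.card ↥(K ⊓ Subgroup.centralizer ({g} : Set H))
            = Nat.card ↥(⁅K, K⁆ ⊓ Subgroup.centralizer ({g} : Set H))
              * Nat.card (fixg (thetaK K ⟨g, hg⟩)) := by
        intro g hg hgP
        apply card_centralizer_quot_closure K {g} (Set.singleton_subset_iff.2 hg)
          (hP.to_le ((Subgroup.closure_le _).2 (Set.singleton_subset_iff.2 hgP))) hpK
        intro v
        constructor
        · intro h s hs
          have hsg : s = g := hs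
          subst hsg
          exact h
        · intro h
          exact h g rfl
      have hpair : Nat.card ↥(K ⊓ Subgroup.centralizer ({x, y} : Set H))
          = Nat.card ↥(⁅K, K⁆ ⊓ Subgroup.centralizer ({x, y} : Set H))
            * Nat.card (fixg (thetaK K ⟨x, hxK⟩) ⊓ fixg (thetaK K ⟨y, hyK⟩) :
                AddSubgroup (Additive (Abelianization ↥K))) := by
        apply card_centralizer_quot_closure K {x, y} (by
          intro s hs
          rcases hs with rfl | rfl
          · exact hxK
          · exact hyK) hP hpK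
        intro v
        constructor
        · rintro ⟨h1, h2⟩ s hs
          rcases hs with rfl | rfl
          · exact h1
          · exact h2
        · intro h
          exact ⟨h x (by simp), h y (by simp)⟩
      have hxiy : ∀ i : ℕ, x ^ i * y ∈ Subgroup.normalizer (K : Set H) :=
        fun i => Subgroup.mul_mem _ (Subgroup.pow_mem _ hxK i) hyK
      have hxiyP : ∀ i : ℕ, x ^ i * y ∈ Subgroup.closure ({x, y} : Set H) :=
        fun i => Subgroup.mul_mem _ (Subgroup.pow_mem _ hxP i) hyP
      have hth : ∀ i : ℕ, thetaK K ⟨x ^ i * y, hxiy i⟩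
          = (thetaK K ⟨x, hxK⟩) ^ i * thetaK K ⟨y, hyK⟩ := by
        intro i
        rw [← map_pow, ← map_mul]
        rfl
      have hprod : ∏ i ∈ Finset.range p, Nat.card ↥(K ⊓ Subgroup.centralizer ({x ^ i * y} : Set H))
          = (∏ i ∈ Finset.range p,
              Nat.card ↥(⁅K, K⁆ ⊓ Subgroup.centralizer ({x ^ i * y} : Set H)))
            * ∏ i ∈ Finset.range p,
              Nat.card (fixg ((thetaK K ⟨x, hxK⟩) ^ i * thetaK K ⟨y, hyK⟩)) := by
        rw [← Finset.prod_mul_distrib]
        apply Finset.prod_congr rfl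
        intro i _
        rw [hg_card (x ^ i * y) (hxiy i) (hxiyP i), hth]
      rw [hg_card x hxK hxP, hprod, hpair, hKcard]
      calc Nat.card ↥(⁅K, K⁆ ⊓ Subgroup.centralizer ({x} : Set H))
            * Nat.card (fixg (thetaK K ⟨x, hxK⟩))
            * ((∏ i ∈ Finset.range p,
              Nat.card ↥(⁅K, K⁆ ⊓ Subgroup.centralizer ({x ^ i * y} : Set H)))
            * ∏ i ∈ Finset.range p,
              Nat.card (fixg ((thetaK K ⟨x, hxK⟩) ^ i * thetaK K ⟨y, hyK⟩)))
          = (Nat.card ↥(⁅K, K⁆ ⊓ Subgroup.centralizer ({x} : Set H))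
            * ∏ i ∈ Finset.range p,
              Nat.card ↥(⁅K, K⁆ ⊓ Subgroup.centralizer ({x ^ i * y} : Set H)))
            * (Nat.card (fixg (thetaK K ⟨x, hxK⟩)) * ∏ i ∈ Finset.range p,
              Nat.card (fixg ((thetaK K ⟨x, hxK⟩) ^ i * thetaK K ⟨y, hyK⟩))) := by ring
        _ = _ := by
          rw [ihN, hab, mul_pow]
          ring

/-- For an invariant Sylow subgroup `Q` of `K` under a coprime action of `B`, `C_Q(B)` is a
Sylow subgroup of `C_K(B)`. -/
theorem card_sylow_centralizer {q : ℕ} [Fact q.Prime] [Finite H] (K B : Subgroup H)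
    (hBK : B ≤ Subgroup.normalizer (K : Set H)) (hcop : (Nat.card B).Coprime (Nat.card K))
    (hsolv : Group.IsSolvable B) (P : Sylow q K)
    (hBP : B ≤ Subgroup.normalizer (((P : Subgroup K).map K.subtype : Subgroup H) : Set H)) :
    Nat.card ↥((P : Subgroup K).map K.subtype ⊓ Subgroup.centralizer (B : Set H))
      = q ^ (Nat.card ↥(K ⊓ Subgroup.centralizer (B : Set H))).factorization q := by
  obtain ⟨Q, hQ⟩ : ∃ Q : Subgroup H, Q = (P : Subgroup K).map K.subtype := ⟨_, rfl⟩
  rw [← hQ]
  have hQK : Q ≤ K := by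
    rw [hQ]
    exact Subgroup.map_subtype_le _
  have hQq : IsPGroup q Q := by
    rw [hQ]
    exact P.isPGroup'.map _
  obtain ⟨C, hC⟩ : ∃ C : Subgroup H, C = K ⊓ Subgroup.centralizer (B : Set H) := ⟨_, rfl⟩
  rw [← hC]
  have hUC : Q ⊓ Subgroup.centralizer (B : Set H) ≤ C := by
    rw [hC]
    exact inf_le_inf_right _ hQK
  have hUq : IsPGroup q ↥(Q ⊓ Subgroup.centralizer (B : Set H)) := hQq.to_le inf_le_left
  obtain ⟨T, hT⟩ := (hUq.comap_of_injective C.subtype C.subtype_injective).exists_le_sylow
  obtain ⟨T', hT'⟩ : ∃ T' : Subgroup H, T' = (T : Subgroup C).map C.subtype := ⟨_, rfl⟩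
  have hT'C : T' ≤ C := by
    rw [hT']
    exact Subgroup.map_subtype_le _
  have hUT' : Q ⊓ Subgroup.centralizer (B : Set H) ≤ T' := by
    intro u hu
    rw [hT']
    exact ⟨⟨u, hUC hu⟩, hT (show (⟨u, hUC hu⟩ : C) ∈
      (Q ⊓ Subgroup.centralizer (B : Set H)).comap C.subtype from hu), rfl⟩
  have hT'q : IsPGroup q T' := by
    rw [hT']
    exact T.isPGroup'.map _
  have hT'card : Nat.card T' = q ^ (Nat.card C).factorization q := by
    rw [hT', ← T.card_eq_multiplicity]
    exact (Nat.card_congr
      (Subgroup.equivMapOfInjective _ _ C.subtype_injective).toEquiv).symm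
  have hT'cent : T' ≤ Subgroup.centralizer (B : Set H) := by
    intro t ht
    have := hT'C ht
    rw [hC] at this
    exact this.2
  have hBT' : B ≤ Subgroup.normalizer (T' : Set H) := by
    intro b hb
    rw [Subgroup.mem_normalizer_iff]
    intro h
    constructor
    · intro hh
      have hcomm : b * h = h * b := Subgroup.mem_centralizer_iff.1 (hT'cent hh) b hb
      have : b * h * b⁻¹ = h := by
        rw [hcomm]
        group
      rw [this]
      exact hh
    · intro hh
      have hcomm : b * (b * h * b⁻¹) = (b * h * b⁻¹) * b :=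
        Subgroup.mem_centralizer_iff.1 (hT'cent hh) b hb
      have : b * h * b⁻¹ = h := by
        have h1 : b * (b * h * b⁻¹) = b * h := by
          rw [hcomm]
          group
        exact mul_left_cancel h1
      rw [← this]
      exact hh
  obtain ⟨P₁, hT'P₁, hBP₁⟩ := Cfsg.Agent.S0025.result B K hBK hcop (Or.inl hsolv) q T'
    (hT'C.trans (by rw [hC]; exact inf_le_left)) hT'q hBT'
  obtain ⟨c, hcB, hconj⟩ := Cfsg.Agent.S0024.result B K hBK hcop (Or.inl hsolv) q P₁ P hBP₁ hBP
  have hmap : ∀ t ∈ T', (c : H) * t * (c : H)⁻¹ ∈ Q ⊓ Subgroup.centralizer (B : Set H) := by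
    intro t ht
    constructor
    · obtain ⟨k, hk, rfl⟩ := hT'P₁ ht
      rw [hQ]
      refine ⟨c * k * c⁻¹, ?_, rfl⟩
      have h1 : c * k * c⁻¹ ∈ ((c • P₁ : Sylow q K) : Subgroup K) := by
        rw [mem_sylow_smul_iff]
        have : c⁻¹ * (c * k * c⁻¹) * c = k := by group
        rw [this]
        exact hk
      have h2 : (c • P₁ : Sylow q K) = P := hconj
      rw [h2] at h1
      exact h1
    · exact Subgroup.mul_mem _ (Subgroup.mul_mem _ hcB (hT'cent ht)) (Subgroup.inv_mem _ hcB)
  have hle1 : Nat.card T' ≤ Nat.card ↥(Q ⊓ Subgroup.centralizer (B : Set H)) := by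
    apply Nat.card_le_card_of_injective
      (fun t : T' => (⟨(c : H) * t * (c : H)⁻¹, hmap t t.2⟩ :
        ↥(Q ⊓ Subgroup.centralizer (B : Set H))))
    intro a b hab
    have h1 : (c : H) * a * (c : H)⁻¹ = (c : H) * b * (c : H)⁻¹ := congrArg Subtype.val hab
    exact Subtype.ext (mul_left_cancel (mul_right_cancel h1))
  have hle2 : Nat.card ↥(Q ⊓ Subgroup.centralizer (B : Set H)) ≤ Nat.card T' :=
    Subgroup.card_le_of_le hUT'
  rw [← hT'card]
  exact le_antisymm hle2 hle1

/-- **Brauer–Wielandt order formula** for a coprime action of two commuting elements of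
order dividing `p`. -/
theorem brauer_wielandt {p : ℕ} [Fact p.Prime] [Finite H] (x y : H) (hxy : x * y = y * x)
    (hx : x ^ p = 1) (hy : y ^ p = 1) (K : Subgroup H)
    (hxK : x ∈ Subgroup.normalizer (K : Set H)) (hyK : y ∈ Subgroup.normalizer (K : Set H))
    (hpK : ¬ p ∣ Nat.card K) : BWFormula p x y K := by
  have hp : p.Prime := Fact.out
  have hP := isPGroup_closure_pair x y hxy hx hy
  have hxP : x ∈ Subgroup.closure ({x, y} : Set H) := Subgroup.subset_closure (by simp)
  have hyP : y ∈ Subgroup.closure ({x, y} : Set H) := Subgroup.subset_closure (by simp)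
  have hxiyP : ∀ i : ℕ, x ^ i * y ∈ Subgroup.closure ({x, y} : Set H) :=
    fun i => Subgroup.mul_mem _ (Subgroup.pow_mem _ hxP i) hyP
  have hne : ∀ L : Subgroup H, Nat.card ↥L ≠ 0 := fun L => Nat.card_pos.ne'
  unfold BWFormula
  have hL0 : Nat.card ↥(K ⊓ Subgroup.centralizer ({x} : Set H)) *
      ∏ i ∈ Finset.range p, Nat.card ↥(K ⊓ Subgroup.centralizer ({x ^ i * y} : Set H)) ≠ 0 :=
    mul_ne_zero (hne _) (Finset.prod_ne_zero_iff.2 (fun i _ => hne _))
  have hR0 : Nat.card ↥K * Nat.card ↥(K ⊓ Subgroup.centralizer ({x, y} : Set H)) ^ p ≠ 0 :=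
    mul_ne_zero (hne _) (pow_ne_zero _ (hne _))
  apply Nat.eq_of_factorization_eq hL0 hR0
  intro q
  by_cases hq : q.Prime
  · have hqf : Fact q.Prime := ⟨hq⟩
    have hAK : Subgroup.closure ({x, y} : Set H) ≤ Subgroup.normalizer (K : Set H) := by
      rw [Subgroup.closure_le]
      intro s hs
      rcases hs with rfl | rfl
      · exact hxK
      · exact hyK
    obtain ⟨hcopA, hsolvA⟩ := coprime_solvable_of_isPGroup K _ hP hpK
    obtain ⟨P, hPA⟩ := Cfsg.Agent.S0023.result (Subgroup.closure ({x, y} : Set H)) K hAK hcopA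
      (Or.inl hsolvA) q
    obtain ⟨Q, hQ⟩ : ∃ Q : Subgroup H, Q = (P : Subgroup K).map K.subtype := ⟨_, rfl⟩
    rw [← hQ] at hPA
    have hQK : Q ≤ K := by
      rw [hQ]
      exact Subgroup.map_subtype_le _
    have hQq : IsPGroup q Q := by
      rw [hQ]
      exact P.isPGroup'.map _
    have hQsol : Group.IsSolvable Q := by
      have := hQq.isNilpotent
      infer_instance
    have hQp : ¬ p ∣ Nat.card Q := fun h => hpK (h.trans (Subgroup.card_dvd_of_le hQK))
    have hbwQ := bw_solvable x y hxy hx hy (Nat.card Q) Q le_rfl hQsol (hPA hxP) (hPA hyP) hQp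
    unfold BWFormula at hbwQ
    have hsf : ∀ S₀ : Set H, S₀ ⊆ (Subgroup.closure ({x, y} : Set H) : Set H) →
        Nat.card ↥(Q ⊓ Subgroup.centralizer S₀)
          = q ^ (Nat.card ↥(K ⊓ Subgroup.centralizer S₀)).factorization q := by
      intro S₀ hS₀
      have hle : Subgroup.closure S₀ ≤ Subgroup.closure ({x, y} : Set H) :=
        (Subgroup.closure_le _).2 hS₀
      obtain ⟨hcopB, hsolvB⟩ := coprime_solvable_of_isPGroup K _ (hP.to_le hle) hpK
      have h := card_sylow_centralizer K (Subgroup.closure S₀) (hle.trans hAK) hcopB hsolvB P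
        (by rw [← hQ]; exact hle.trans hPA)
      rwa [Subgroup.centralizer_closure, ← hQ] at h
    have hQcard : Nat.card Q = q ^ (Nat.card K).factorization q := by
      rw [hQ, ← P.card_eq_multiplicity]
      exact (Nat.card_congr
        (Subgroup.equivMapOfInjective _ _ K.subtype_injective).toEquiv).symm
    have hprodQ : ∏ i ∈ Finset.range p, Nat.card ↥(Q ⊓ Subgroup.centralizer ({x ^ i * y} : Set H))
        = q ^ ∑ i ∈ Finset.range p,
          (Nat.card ↥(K ⊓ Subgroup.centralizer ({x ^ i * y} : Set H))).factorization q := by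
      rw [← Finset.prod_pow_eq_pow_sum]
      apply Finset.prod_congr rfl
      intro i _
      exact hsf _ (Set.singleton_subset_iff.2 (hxiyP i))
    rw [hsf {x} (Set.singleton_subset_iff.2 hxP), hprodQ, hQcard,
      hsf {x, y} (by
        intro s hs
        rcases hs with rfl | rfl
        · exact hxP
        · exact hyP), ← pow_add, ← pow_mul, ← pow_add] at hbwQ
    have hexp := Nat.pow_right_injective hq.two_le hbwQ
    have hLf : (Nat.card ↥(K ⊓ Subgroup.centralizer ({x} : Set H)) *
        ∏ i ∈ Finset.range p,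
          Nat.card ↥(K ⊓ Subgroup.centralizer ({x ^ i * y} : Set H))).factorization q
        = (Nat.card ↥(K ⊓ Subgroup.centralizer ({x} : Set H))).factorization q
          + ∑ i ∈ Finset.range p,
            (Nat.card ↥(K ⊓ Subgroup.centralizer ({x ^ i * y} : Set H))).factorization q := by
      rw [Nat.factorization_mul (hne _) (Finset.prod_ne_zero_iff.2 (fun i _ => hne _)),
        Nat.factorization_prod (fun i _ => hne _)]
      simp
    have hRf : (Nat.card ↥K *
        Nat.card ↥(K ⊓ Subgroup.centralizer ({x, y} : Set H)) ^ p).factorization q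
        = (Nat.card ↥K).factorization q
          + (Nat.card ↥(K ⊓ Subgroup.centralizer ({x, y} : Set H))).factorization q * p := by
      rw [Nat.factorization_mul (hne _) (pow_ne_zero _ (hne _)), Nat.factorization_pow]
      simp [mul_comm]
    rw [hLf, hRf]
    exact hexp
  · rw [Nat.factorization_eq_zero_of_not_prime _ hq, Nat.factorization_eq_zero_of_not_prime _ hq]

end Cfsg.Agent.Lib.Helper90
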