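import Mathlib
import Cfsg.Agent.Lib.Helper87.PGroupFrattini

set_option autoImplicit false

/-!
The index of the subgroup generated by squares (`sqi`), a substitute for the Frattini index of a
`2`-group that behaves well under kernels, images and subgroups.
-/

namespace Cfsg.Agent.Lib.Helper90.Irr2

/-- The subgroup generated by the squares. -/
def sqSub (X : Type*) [Group X] : Subgroup X := Subgroup.closure (Set.range fun x : X => x ^ 2)

/-- The index of the subgroup generated by the squares. -/
noncomputable def sqi (X : Type*) [Group X] : ℕ := (sqSub X).index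

theorem sq_mem_sqSub {X : Type*} [Group X] (x : X) : x ^ 2 ∈ sqSub X :=
  Subgroup.subset_closure ⟨x, rfl⟩

theorem sqSub_le {X : Type*} [Group X] {H : Subgroup X} (h : ∀ x : X, x ^ 2 ∈ H) :
    sqSub X ≤ H := by
  refine (Subgroup.closure_le _).mpr ?_
  rintro _ ⟨x, rfl⟩
  exact h x

theorem map_sqSub_le {X Y : Type*} [Group X] [Group Y] (f : X →* Y) :
    (sqSub X).map f ≤ sqSub Y := by
  rw [Subgroup.map_le_iff_le_comap]
  apply sqSub_le
  intro x
  rw [Subgroup.mem_comap, map_pow]
  exact sq_mem_sqSub _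

theorem map_sqSub_of_surjective {X Y : Type*} [Group X] [Group Y] (f : X →* Y)
    (hf : Function.Surjective f) : (sqSub X).map f = sqSub Y := by
  apply le_antisymm (map_sqSub_le f)
  apply sqSub_le
  intro y
  obtain ⟨x, rfl⟩ := hf y
  rw [← map_pow]
  exact Subgroup.mem_map_of_mem f (sq_mem_sqSub x)

instance sqSub_normal (X : Type*) [Group X] : (sqSub X).Normal := by
  constructor
  intro n hn g
  have h1 : (MulAut.conj g).toMonoidHom n ∈ (sqSub X).map (MulAut.conj g).toMonoidHom :=
    Subgroup.mem_map_of_mem _ hn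
  have h2 := map_sqSub_le (MulAut.conj g).toMonoidHom h1
  simpa using h2

theorem sqi_congr {X Y : Type*} [Group X] [Group Y] (e : X ≃* Y) : sqi X = sqi Y := by
  unfold sqi
  rw [← map_sqSub_of_surjective e.toMonoidHom e.surjective]
  exact (Subgroup.index_map_equiv (sqSub X) e).symm

theorem sqi_ne_zero (X : Type*) [Group X] [Finite X] : sqi X ≠ 0 :=
  Subgroup.index_ne_zero_of_finite

theorem sqi_pos (X : Type*) [Group X] [Finite X] : 0 < sqi X :=
  Nat.pos_of_ne_zero (sqi_ne_zero X)

theorem sqi_le_card (X : Type*) [Group X] [Finite X] : sqi X ≤ Nat.card X :=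
  Nat.le_of_dvd Nat.card_pos (Subgroup.index_dvd_card _)

theorem sqi_eq_of_injective {X Y : Type*} [Group X] [Group Y] (f : X →* Y)
    (hf : Function.Injective f) : sqi X = sqi ↥f.range :=
  sqi_congr (MonoidHom.ofInjective hf)

/-- `sqi` is submultiplicative along a homomorphism. -/
theorem sqi_le_ker_mul_range {X Y : Type*} [Group X] [Group Y] [Finite X] (f : X →* Y) :
    sqi X ≤ sqi ↥f.ker * sqi ↥f.range := by
  have h1 : (sqSub X).relIndex (f.ker ⊔ sqSub X) * (f.ker ⊔ sqSub X).index = (sqSub X).index :=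
    Subgroup.relIndex_mul_index le_sup_right
  have h2 : (sqSub X).relIndex (f.ker ⊔ sqSub X) = (sqSub X).relIndex f.ker :=
    Subgroup.relIndex_sup_right _ _
  have h3 : (f.ker ⊔ sqSub X).index = sqi ↥f.range := by
    unfold sqi
    rw [← map_sqSub_of_surjective f.rangeRestrict f.rangeRestrict_surjective,
      Subgroup.index_map, MonoidHom.ker_rangeRestrict,
      MonoidHom.range_eq_top_of_surjective _ f.rangeRestrict_surjective, Subgroup.index_top,
      mul_one, sup_comm]
  have h4 : (sqSub X).relIndex f.ker ≤ sqi ↥f.ker := by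
    have h5 : (sqSub ↥f.ker).map f.ker.subtype ≤ sqSub X := map_sqSub_le _
    have h6 : ((sqSub ↥f.ker).map f.ker.subtype).relIndex f.ker = sqi ↥f.ker := by
      unfold sqi Subgroup.relIndex Subgroup.subgroupOf
      rw [Subgroup.comap_map_eq_self_of_injective f.ker.subtype_injective]
    rw [← h6]
    refine Subgroup.relIndex_le_of_le_left h5 ?_
    rw [h6]
    exact sqi_ne_zero _
  unfold sqi at h3 h4 ⊢
  rw [← h1, h2, h3]
  exact Nat.mul_le_mul_right _ h4

/-- `sqi` of a group is bounded by the index times `sqi` of a subgroup. -/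
theorem sqi_le_index_mul {X : Type*} [Group X] [Finite X] (H : Subgroup X) :
    sqi X ≤ H.index * sqi ↥H := by
  have h5 : (sqSub ↥H).map H.subtype ≤ sqSub X := map_sqSub_le _
  have h6 : ((sqSub ↥H).map H.subtype).index = (sqSub ↥H).index * H.index :=
    Subgroup.index_map_subtype _
  have h7 : (sqSub X).index ∣ ((sqSub ↥H).map H.subtype).index := Subgroup.index_dvd_of_le h5
  have h8 : ((sqSub ↥H).map H.subtype).index ≠ 0 := Subgroup.index_ne_zero_of_finite
  unfold sqi
  rw [mul_comm, ← h6]
  exact Nat.le_of_dvd (Nat.pos_of_ne_zero h8) h7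

/-- relative version of `sqi_le_index_mul` -/
theorem sqi_le_relIndex_mul {P : Type*} [Group P] [Finite P] (B' B : Subgroup P) (h : B' ≤ B) :
    sqi ↥B ≤ B'.relIndex B * sqi ↥B' := by
  have h1 := sqi_le_index_mul (B'.subgroupOf B)
  rw [sqi_congr (Subgroup.subgroupOfEquivOfLe h)] at h1
  exact h1

/-- In a commutative group, `sqi` counts the solutions of `x ^ 2 = 1`. -/
theorem sqi_le_of_comm {X T : Type*} [Group X] [Finite X] (hc : ∀ x y : X, x * y = y * x)
    (ι : X → T) (hι : Function.Injective ι) (S : Finset T)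
    (hS : ∀ x : X, x ^ 2 = 1 → ι x ∈ S) : sqi X ≤ S.card := by
  classical
  let sq : X →* X := MonoidHom.mk' (fun x => x ^ 2) (fun a b => (Commute.mul_pow (hc a b) 2))
  have h1 : sqSub X = sq.range := by
    unfold sqSub
    have : (Set.range fun x : X => x ^ 2) = ((sq.range : Subgroup X) : Set X) := by
      rw [MonoidHom.coe_range]
      rfl
    rw [this, Subgroup.closure_eq]
  have h2 : sq.range.index = Nat.card sq.ker := Subgroup.index_range
  unfold sqi
  rw [h1, h2]
  have h3 : Nat.card sq.ker ≤ Nat.card ↥S := by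
    refine Nat.card_le_card_of_injective
      (fun x : sq.ker => (⟨ι x, hS x (MonoidHom.mem_ker.mp x.2)⟩ : ↥S)) ?_
    intro x y hxy
    have := congrArg Subtype.val hxy
    exact Subtype.ext (hι this)
  have h4 : Nat.card ↥S = S.card := by
    rw [Nat.card_eq_fintype_card, Fintype.card_coe]
  rw [h4] at h3
  exact h3

/-- For a finite `2`-group the Frattini index is at most `sqi`. -/
theorem frattini_index_le_sqi {X : Type*} [Group X] [Finite X] (hX : IsPGroup 2 X) :
    (frattini X).index ≤ sqi X := by
  haveI : Fact (Nat.Prime 2) := ⟨Nat.prime_two⟩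
  have h1 : sqSub X ≤ frattini X :=
    sqSub_le (fun x => Cfsg.Agent.Lib.Helper87.pow_p_mem_frattini hX x)
  exact Nat.le_of_dvd (sqi_pos X) (Subgroup.index_dvd_of_le h1)

/-- If some square is nontrivial, `sqi` is at most half the order. -/
theorem two_mul_sqi_le_card {X : Type*} [Group X] [Finite X] (x : X) (hx : x ^ 2 ≠ 1) :
    2 * sqi X ≤ Nat.card X := by
  have h1 : sqSub X ≠ ⊥ := by
    intro h
    have h2 := sq_mem_sqSub x
    rw [h, Subgroup.mem_bot] at h2
    exact hx h2
  have h3 : 1 < Nat.card (sqSub X) := (Subgroup.one_lt_card_iff_ne_bot _).mpr h1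
  have h4 : Nat.card (sqSub X) * (sqSub X).index = Nat.card X := Subgroup.card_mul_index _
  unfold sqi
  rw [← h4]
  exact Nat.mul_le_mul_right _ h3

end Cfsg.Agent.Lib.Helper90.Irr2
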