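import Mathlib
import Cfsg.Agent.Lib.Helper90.SqIndex

set_option autoImplicit false

/-!
Involutive automorphisms of a cyclic `2`-group: there are at most four.
-/

namespace Cfsg.Agent.Lib.Helper90.Irr2

/-- Square roots of one modulo a power of two. -/
theorem zmod_sq_eq_one_cases (n k : ℕ) (hn : n = 2 ^ k) (x : ZMod n) (hx : x * x = 1) :
    x = 1 ∨ x = -1 ∨ x = 1 + ((2 ^ (k - 1) : ℕ) : ZMod n) ∨
      x = -1 + ((2 ^ (k - 1) : ℕ) : ZMod n) := by
  subst hn
  rcases Nat.eq_zero_or_pos k with hk | hk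
  · subst hk
    haveI : Subsingleton (ZMod (2 ^ 0)) := by
      rw [pow_zero]; infer_instance
    exact Or.inl (Subsingleton.elim _ _)
  haveI : NeZero (2 ^ k) := ⟨by positivity⟩
  have hxm : ((x.val : ℕ) : ZMod (2 ^ k)) = x := ZMod.natCast_zmod_val x
  have hmod : x.val * x.val ≡ 1 [MOD 2 ^ k] := by
    rw [← ZMod.natCast_eq_natCast_iff]
    rw [Nat.cast_mul, hxm, hx, Nat.cast_one]
  have h2dvd : 2 ∣ 2 ^ k := dvd_pow_self 2 (by omega)
  have hmod2 : x.val * x.val ≡ 1 [MOD 2] := hmod.of_dvd h2dvd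
  obtain ⟨j, hj⟩ : ∃ j, x.val = 2 * j + 1 := by
    rcases Nat.even_or_odd' x.val with ⟨j, hj | hj⟩
    · exfalso
      rw [hj] at hmod2
      have h0 : 2 * j * (2 * j) = 2 * (2 * j * j) := by ring
      rw [h0] at hmod2
      unfold Nat.ModEq at hmod2
      omega
    · exact ⟨j, hj⟩
  have hdvd : 2 ^ k ∣ 4 * (j * (j + 1)) := by
    have h0 : x.val * x.val = 4 * (j * (j + 1)) + 1 := by rw [hj]; ring
    have h1 : 2 ^ k ∣ x.val * x.val - 1 :=
      (Nat.modEq_iff_dvd' (by rw [h0]; omega)).mp hmod.symm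
    have h3 : x.val * x.val - 1 = 4 * (j * (j + 1)) := by omega
    rwa [h3] at h1
  have hkey : 2 ^ (k - 1) ∣ 2 * j ∨ 2 ^ (k - 1) ∣ 2 * (j + 1) := by
    rcases Nat.lt_or_ge k 2 with hk2 | hk2
    · have h0 : k - 1 = 0 := by omega
      rw [h0, pow_zero]
      exact Or.inl (one_dvd _)
    · obtain ⟨k', rfl⟩ : ∃ k', k = k' + 2 := ⟨k - 2, by omega⟩
      have h4 : 2 ^ k' ∣ j * (j + 1) := by
        have h0 : 2 ^ (k' + 2) = 4 * 2 ^ k' := by ring
        rw [h0] at hdvd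
        exact Nat.dvd_of_mul_dvd_mul_left (by norm_num) hdvd
      have h5 : k' + 2 - 1 = k' + 1 := by omega
      rw [h5, pow_succ, mul_comm]
      rcases Nat.even_or_odd' j with ⟨i, hi | hi⟩
      · left
        have h6 : ¬ 2 ∣ j + 1 := by omega
        exact Nat.mul_dvd_mul_left 2 (Nat.prime_two.prime.pow_dvd_of_dvd_mul_right k' h6 h4)
      · right
        have h6 : ¬ 2 ∣ j := by omega
        exact Nat.mul_dvd_mul_left 2 (Nat.prime_two.prime.pow_dvd_of_dvd_mul_left k' h6 h4)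
  have h2h : (2 : ZMod (2 ^ k)) * ((2 ^ (k - 1) : ℕ) : ZMod (2 ^ k)) = 0 := by
    have h6 : 2 * 2 ^ (k - 1) = 2 ^ k := by
      obtain ⟨k', rfl⟩ : ∃ k', k = k' + 1 := ⟨k - 1, by omega⟩
      rw [Nat.add_sub_cancel, pow_succ, mul_comm]
    have h7 : ((2 * 2 ^ (k - 1) : ℕ) : ZMod (2 ^ k)) = 0 := by
      rw [h6]; exact ZMod.natCast_self _
    rw [Nat.cast_mul] at h7
    exact_mod_cast h7
  have hpar : ∀ t : ℕ, ((2 ^ (k - 1) : ℕ) : ZMod (2 ^ k)) * (t : ZMod (2 ^ k)) = 0 ∨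
      ((2 ^ (k - 1) : ℕ) : ZMod (2 ^ k)) * (t : ZMod (2 ^ k)) =
        ((2 ^ (k - 1) : ℕ) : ZMod (2 ^ k)) := by
    intro t
    have h2c : ((2 : ℕ) : ZMod (2 ^ k)) = 2 := by norm_cast
    rcases Nat.even_or_odd' t with ⟨i, hi | hi⟩
    · left
      rw [hi, Nat.cast_mul, ← mul_assoc, mul_comm _ ((2 : ℕ) : ZMod (2 ^ k)), h2c, h2h, zero_mul]
    · right
      rw [hi, Nat.cast_add, Nat.cast_mul, Nat.cast_one, mul_add, mul_one, ← mul_assoc,
        mul_comm _ ((2 : ℕ) : ZMod (2 ^ k)), h2c, h2h, zero_mul, zero_add]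
  rcases hkey with ⟨t, ht⟩ | ⟨t, ht⟩
  · have hx1 : x = 1 + ((2 ^ (k - 1) : ℕ) : ZMod (2 ^ k)) * (t : ZMod (2 ^ k)) := by
      rw [← hxm, hj, Nat.cast_add, ht, Nat.cast_mul, Nat.cast_one, add_comm]
    rcases hpar t with h | h
    · left; rw [hx1, h, add_zero]
    · right; right; left; rw [hx1, h]
  · have hx1 : x = -1 + ((2 ^ (k - 1) : ℕ) : ZMod (2 ^ k)) * (t : ZMod (2 ^ k)) := by
      have h8 : ((x.val + 1 : ℕ) : ZMod (2 ^ k)) = ((2 ^ (k - 1) * t : ℕ) : ZMod (2 ^ k)) := by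
        congr 1; rw [hj, ← ht]; ring
      rw [Nat.cast_add, hxm, Nat.cast_one, Nat.cast_mul] at h8
      rw [← h8]; ring
    rcases hpar t with h | h
    · right; left; rw [hx1, h, add_zero]
    · right; right; right; rw [hx1, h]

theorem mulAut_cyclic_comm {E : Type*} [Group E] [IsCyclic E] (a b : MulAut E) :
    a * b = b * a := by
  apply (IsCyclic.mulAutMulEquiv E).injective
  rw [map_mul, map_mul, mul_comm]

/-- A group embedded in the automorphism group of a cyclic `2`-group has `sqi ≤ 4`. -/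
theorem sqi_le_four_of_cyclic {E Y : Type*} [Group E] [Finite E] [IsCyclic E] {k : ℕ}
    (hE : Nat.card E = 2 ^ k) [Group Y] [Finite Y] (f : Y →* MulAut E)
    (hf : Function.Injective f) : sqi Y ≤ 4 := by
  classical
  have hc : ∀ x y : Y, x * y = y * x := by
    intro x y
    apply hf
    rw [map_mul, map_mul]
    exact mulAut_cyclic_comm _ _
  let ι : Y → ZMod (Nat.card E) := fun y =>
    ((IsCyclic.mulAutMulEquiv E (f y) : (ZMod (Nat.card E))ˣ) : ZMod (Nat.card E))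
  have hι : Function.Injective ι := by
    intro x y hxy
    exact hf ((IsCyclic.mulAutMulEquiv E).injective (Units.ext hxy))
  let S : Finset (ZMod (Nat.card E)) :=
    {1, -1, 1 + ((2 ^ (k - 1) : ℕ) : ZMod (Nat.card E)),
      -1 + ((2 ^ (k - 1) : ℕ) : ZMod (Nat.card E))}
  have hS : ∀ y : Y, y ^ 2 = 1 → ι y ∈ S := by
    intro y hy
    have h1 : ι y * ι y = 1 := by
      show ((IsCyclic.mulAutMulEquiv E (f y) : (ZMod (Nat.card E))ˣ) : ZMod (Nat.card E)) *
        ((IsCyclic.mulAutMulEquiv E (f y) : (ZMod (Nat.card E))ˣ) : ZMod (Nat.card E)) = 1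
      rw [← Units.val_mul, ← map_mul, ← map_mul, ← pow_two, hy, map_one, map_one, Units.val_one]
    have h2 := zmod_sq_eq_one_cases _ k hE (ι y) h1
    simp only [S, Finset.mem_insert, Finset.mem_singleton]
    exact h2
  have h2 := sqi_le_of_comm hc ι hι S hS
  exact h2.trans Finset.card_le_four

theorem card_mulAut_le_two {E : Type*} [Group E] [Finite E] [IsCyclic E]
    (hE : Nat.card E ≤ 4) : Nat.card (MulAut E) ≤ 2 := by
  rw [IsCyclic.card_mulAut]
  have h0 : 0 < Nat.card E := Nat.card_pos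
  generalize Nat.card E = n at hE h0
  interval_cases n <;> decide

end Cfsg.Agent.Lib.Helper90.Irr2
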