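import Mathlib
import Cfsg.Agent.Lib.Helper4.TwoRank
import Cfsg.Agent.Lib.Helper10.FrobAction
import Cfsg.Agent.Lib.Helper57.HSubA
import Cfsg.Agent.Lib.Helper90.SqIndex
import Cfsg.Agent.Lib.Helper90.CycAut2

set_option autoImplicit false

/-!
Irreducible `2`-groups of automorphisms of an abelian group `V` of odd order: every subgroup `B`
satisfies `2 * sqi B ≤ |V|`, unless `|V| = 3`.
-/

namespace Cfsg.Agent.Lib.Helper90.Irr2

universe u

theorem sqi_le_two_of_unique_invol {X : Type*} [Group X] [Finite X]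
    (hc : ∀ x y : X, x * y = y * x)
    (hu : ∀ s t : X, s ^ 2 = 1 → t ^ 2 = 1 → s ≠ 1 → t ≠ 1 → s = t) : sqi X ≤ 2 := by
  classical
  by_cases h : ∃ s : X, s ^ 2 = 1 ∧ s ≠ 1
  · obtain ⟨s, hs, hs1⟩ := h
    refine (sqi_le_of_comm hc id Function.injective_id {1, s} ?_).trans Finset.card_le_two
    intro x hx
    by_cases hx1 : x = 1
    · simp [hx1]
    · simp [hu x s hx hs hx1 hs1]
  · push Not at h
    refine (sqi_le_of_comm hc id Function.injective_id {1} ?_).trans (by simp)
    intro x hx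
    simp [h x hx]

theorem mem_normalizer_of_conj_le {P : Type*} [Group P] [Finite P] (K : Subgroup P) (y : P)
    (h : ∀ k ∈ K, y * k * y⁻¹ ∈ K) : y ∈ Subgroup.normalizer (K : Set P) := by
  rw [Subgroup.mem_normalizer_iff]
  intro k
  refine ⟨h k, fun hk => ?_⟩
  have hinj : Function.Injective (fun k : ↥K => (⟨y * k * y⁻¹, h k k.2⟩ : ↥K)) := by
    intro a b hab
    have h1 := congrArg Subtype.val hab
    simp only [mul_left_inj, mul_right_inj] at h1
    exact Subtype.ext h1
  obtain ⟨k', hk'⟩ := (Finite.surjective_of_injective hinj) ⟨y * k * y⁻¹, hk⟩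
  have h1 := congrArg Subtype.val hk'
  simp only [mul_left_inj, mul_right_inj] at h1
  rw [← h1]
  exact k'.2

theorem card_dvd_sub_one_of_semiregular {V Q : Type*} [Group V] [Finite V] [Group Q]
    (ψ : Q →* MulAut V) (h : ∀ q : Q, q ≠ 1 → ∀ v, ψ q v = v → v = 1) :
    Nat.card Q ∣ Nat.card V - 1 := by
  letI : MulAction Q V := MulAction.compHom V ψ
  have hsmul : ∀ (q : Q) (v : V), q • v = ψ q v := fun _ _ => rfl
  have h1 := Cfsg.Agent.Lib.Helper10.card_mod_of_fixed (K := Q) (X := V)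
    (fun x hx a b ha hb => by
      rw [hsmul] at ha hb
      rw [h x hx a ha, h x hx b hb]) (1 : V)
    (fun x => by rw [hsmul, map_one])
  exact (Nat.modEq_iff_dvd' (Nat.card_pos : 0 < Nat.card V)).mp (Eq.symm h1)

section Act

variable {V : Type*} [CommGroup V] {P : Type*} [Group P] (φ : P →* MulAut V)

/-- common fixed points of a subgroup -/
def fixV (K : Subgroup P) : Subgroup V where
  carrier := {v | ∀ k ∈ K, φ k v = v}
  mul_mem' := by
    intro a b ha hb k hk
    rw [map_mul, ha k hk, hb k hk]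
  one_mem' := by
    intro k _
    exact map_one _
  inv_mem' := by
    intro a ha k hk
    rw [map_inv, ha k hk]

theorem mem_fixV {K : Subgroup P} {v : V} : v ∈ fixV φ K ↔ ∀ k ∈ K, φ k v = v := Iff.rfl

/-- fixed points of an element -/
def fixE (x : P) : Subgroup V where
  carrier := {v | φ x v = v}
  mul_mem' := by
    intro a b ha hb
    show φ x (a * b) = a * b
    rw [map_mul, ha, hb]
  one_mem' := map_one _
  inv_mem' := by
    intro a ha
    show φ x a⁻¹ = a⁻¹
    rw [map_inv, ha]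

theorem mem_fixE {x : P} {v : V} : v ∈ fixE φ x ↔ φ x v = v := Iff.rfl

/-- stabilizer of a vector -/
def stabE (u : V) : Subgroup P where
  carrier := {x | φ x u = u}
  mul_mem' := by
    intro a b ha hb
    show φ (a * b) u = u
    rw [map_mul, MulAut.mul_apply, hb, ha]
  one_mem' := by
    show φ 1 u = u
    rw [map_one, MulAut.one_apply]
  inv_mem' := by
    intro a ha
    show φ a⁻¹ u = u
    rw [map_inv]
    conv_lhs => rw [← ha]
    exact MulAut.inv_apply_self _ _ _

theorem mem_stabE {u : V} {x : P} : x ∈ stabE φ u ↔ φ x u = u := Iff.rfl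

/-- invariance of a subgroup of `V` under a subgroup of `P` -/
def Inv (M : Subgroup P) (W : Subgroup V) : Prop := ∀ m ∈ M, ∀ w ∈ W, φ m w ∈ W

/-- irreducibility of the action of a subgroup -/
def Irr (M : Subgroup P) : Prop := ∀ W : Subgroup V, Inv φ M W → W = ⊥ ∨ W = ⊤

/-- restriction of the action of a subgroup to an invariant subgroup -/
def resAut (M : Subgroup P) (W : Subgroup V) (hW : Inv φ M W) : ↥M →* MulAut ↥W where
  toFun m :=
    { toFun := fun w => ⟨φ (m : P) w, hW m m.2 w w.2⟩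
      invFun := fun w => ⟨φ ((m : P)⁻¹) w, hW _ (inv_mem m.2) w w.2⟩
      left_inv := fun w => Subtype.ext (by
        show φ ((m : P)⁻¹) (φ (m : P) w) = w
        rw [← MulAut.mul_apply, ← map_mul, inv_mul_cancel, map_one, MulAut.one_apply])
      right_inv := fun w => Subtype.ext (by
        show φ (m : P) (φ ((m : P)⁻¹) w) = w
        rw [← MulAut.mul_apply, ← map_mul, mul_inv_cancel, map_one, MulAut.one_apply])
      map_mul' := fun a b => Subtype.ext (by
        show φ (m : P) ((a : V) * (b : V)) = φ (m : P) a * φ (m : P) b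
        rw [map_mul]) }
  map_one' := by
    ext w
    show φ ((1 : ↥M) : P) w = w
    rw [Subgroup.coe_one, map_one, MulAut.one_apply]
  map_mul' := fun a b => by
    ext w
    show φ ((a * b : ↥M) : P) w = φ (a : P) (φ (b : P) w)
    rw [Subgroup.coe_mul, map_mul, MulAut.mul_apply]

theorem resAut_apply (M : Subgroup P) (W : Subgroup V) (hW : Inv φ M W) (m : ↥M) (w : ↥W) :
    ((resAut φ M W hW m w : ↥W) : V) = φ (m : P) w := rfl

/-- an involution without fixed points inverts -/
theorem invol_inv (s : P) (hs : s * s = 1) (hbot : fixE φ s = ⊥) (v : V) : φ s v = v⁻¹ := by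
  have h1 : v * φ s v ∈ fixE φ s := by
    show φ s (v * φ s v) = v * φ s v
    rw [map_mul, ← MulAut.mul_apply, ← map_mul, hs, map_one, MulAut.one_apply, mul_comm]
  rw [hbot, Subgroup.mem_bot] at h1
  exact eq_inv_of_mul_eq_one_right h1

/-- the norm map of a subgroup -/
theorem exists_norm [Finite P] (K : Subgroup P) :
    ∃ μ : V →* V, (∀ v, ∀ k ∈ K, φ k (μ v) = μ v) ∧ (∀ v ∈ fixV φ K, μ v = v ^ Nat.card K) ∧
      (∀ x : P, (∀ k ∈ K, x * k = k * x) → ∀ v, φ x v = v → φ x (μ v) = μ v) := by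
  classical
  haveI : Fintype ↥K := Fintype.ofFinite _
  have hμ : ∀ v : V, (∏ k : ↥K, (φ (k : P)).toMonoidHom) v = ∏ k : ↥K, φ (k : P) v := by
    intro v
    rw [MonoidHom.finsetProd_apply]
    rfl
  refine ⟨∏ k : ↥K, (φ (k : P)).toMonoidHom, ?_, ?_, ?_⟩
  · intro v k hk
    rw [hμ, map_prod]
    refine Fintype.prod_equiv (Equiv.mulLeft (⟨k, hk⟩ : ↥K)) _ _ (fun x => ?_)
    show φ k (φ (x : P) v) = φ (((⟨k, hk⟩ : ↥K) * x : ↥K) : P) v
    rw [Subgroup.coe_mul, map_mul, MulAut.mul_apply]
  · intro v hv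
    have h1 : ∏ k : ↥K, φ (k : P) v = ∏ _k : ↥K, v :=
      Finset.prod_congr rfl (fun (k : ↥K) _ => hv (k : P) k.2)
    rw [hμ, h1, Finset.prod_const, Finset.card_univ, Nat.card_eq_fintype_card]
  · intro x hx v hxv
    rw [hμ, map_prod]
    refine Finset.prod_congr rfl (fun k _ => ?_)
    rw [← MulAut.mul_apply, ← map_mul, hx k k.2, map_mul, MulAut.mul_apply, hxv]

/-- A `2`-group of automorphisms of a group of order `9` fixing a nontrivial vector has order at
most `2`. -/
theorem card_stab_le_two [Finite V] [Finite P] (hφ : Function.Injective φ) (hP : IsPGroup 2 P)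
    (hV : Nat.card V = 9) (v : V) (hv : v ≠ 1) (hfix : ∀ q : P, φ q v = v) : Nat.card P ≤ 2 := by
  classical
  haveI : Fact (Nat.Prime 2) := ⟨Nat.prime_two⟩
  by_contra hcon
  push Not at hcon
  letI : MulAction P V := MulAction.compHom V φ
  have hsmul : ∀ (q : P) (w : V), q • w = φ q w := fun _ _ => rfl
  have hZ : ∀ q : P, q ≠ 1 →
      fixE φ q = Subgroup.zpowers v ∧ Nat.card (Subgroup.zpowers v) = 3 := by
    intro q hq
    have hvF : v ∈ fixE φ q := hfix q
    have hle : Subgroup.zpowers v ≤ fixE φ q := (Subgroup.zpowers_le).mpr hvF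
    have hFtop : fixE φ q ≠ ⊤ := by
      intro h
      apply hq
      apply hφ
      rw [map_one]
      ext w
      have h0 : w ∈ fixE φ q := by rw [h]; exact Subgroup.mem_top w
      exact h0
    have hFcard : Nat.card (fixE φ q) = 3 := by
      have h1 : Nat.card (fixE φ q) ∣ 3 ^ 2 := by
        have h0 := Subgroup.card_subgroup_dvd_card (fixE φ q)
        rw [hV] at h0
        exact h0
      obtain ⟨i, hi, hi2⟩ := (Nat.dvd_prime_pow Nat.prime_three).mp h1
      have h2 : Nat.card (fixE φ q) ≠ 9 := by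
        intro h
        exact hFtop ((Subgroup.card_eq_iff_eq_top _).mp (by rw [h, hV]))
      have h3 : Nat.card (fixE φ q) ≠ 1 := by
        intro h
        have h4 := Subgroup.card_eq_one.mp h
        rw [h4, Subgroup.mem_bot] at hvF
        exact hv hvF
      rw [hi2] at h2 h3 ⊢
      interval_cases i
      · exact absurd rfl h3
      · rfl
      · exact absurd rfl h2
    have hZcard : Nat.card (Subgroup.zpowers v) = 3 := by
      have h1 : Nat.card (Subgroup.zpowers v) ∣ 3 := by
        rw [← hFcard]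
        exact Subgroup.card_dvd_of_le hle
      have h2 : Nat.card (Subgroup.zpowers v) ≠ 1 := by
        intro h
        have h4 := Subgroup.card_eq_one.mp h
        exact hv (Subgroup.zpowers_eq_bot.mp h4)
      rcases (Nat.dvd_prime Nat.prime_three).mp h1 with h | h
      · exact absurd h h2
      · exact h
    exact ⟨(Subgroup.eq_of_le_of_card_ge hle (by rw [hFcard, hZcard])).symm, hZcard⟩
  obtain ⟨q₀, hq₀⟩ : ∃ q : P, q ≠ 1 := by
    by_contra h
    push Not at h
    have h0 : Nat.card P = 1 := by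
      haveI : Subsingleton P := ⟨fun a b => by rw [h a, h b]⟩
      exact Nat.card_of_subsingleton (1 : P)
    omega
  have hbad : {ω : V | ∃ x : P, x ≠ 1 ∧ x • ω = ω} =
      ((Subgroup.zpowers v : Subgroup V) : Set V) := by
    ext ω
    constructor
    · rintro ⟨x, hx, hxω⟩
      have h0 : ω ∈ fixE φ x := hxω
      rw [(hZ x hx).1] at h0
      exact h0
    · intro hω
      refine ⟨q₀, hq₀, ?_⟩
      have h0 : ω ∈ fixE φ q₀ := by rw [(hZ q₀ hq₀).1]; exact hω
      exact h0
  have h1 := Cfsg.Agent.Lib.Helper10.card_eq_bad_add_free P V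
  rw [hbad, hV] at h1
  have h2 : Set.ncard ((Subgroup.zpowers v : Subgroup V) : Set V) = 3 := by
    rw [← Nat.card_coe_set_eq]
    exact (hZ q₀ hq₀).2
  have h3 := Cfsg.Agent.Lib.Helper10.card_dvd_card_freePart P V
  have h4 : Nat.card (Cfsg.Agent.Lib.Helper10.freePart P V) = 6 := by omega
  rw [h4] at h3
  obtain ⟨j, hj⟩ := (IsPGroup.iff_card).mp hP
  rw [hj] at h3 hcon
  have hj2 : 2 ≤ j := by
    by_contra h
    push Not at h
    interval_cases j <;> omega
  have h5 : 2 ^ 2 ∣ 6 := dvd_trans (pow_dvd_pow 2 hj2) h3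
  omega

/-- the commutative case: every involution inverts `V` -/
theorem bound_of_comm [Finite P] (hφ : Function.Injective φ) (hirr : Irr φ ⊤)
    (hcomm : ∀ x y : P, x * y = y * x) (B : Subgroup P) : sqi ↥B ≤ 2 := by
  have hinv : ∀ s : P, s * s = 1 → s ≠ 1 → ∀ v, φ s v = v⁻¹ := by
    intro s hs hs1
    have hF : Inv φ ⊤ (fixE φ s) := by
      intro m _ w hw
      show φ s (φ m w) = φ m w
      have hw' : φ s w = w := hw
      rw [← MulAut.mul_apply, ← map_mul, hcomm s m, map_mul, MulAut.mul_apply, hw']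
    have hbot : fixE φ s = ⊥ := by
      rcases hirr _ hF with h | h
      · exact h
      · exfalso
        apply hs1
        apply hφ
        rw [map_one]
        ext v
        have h0 : v ∈ fixE φ s := by rw [h]; exact Subgroup.mem_top v
        exact h0
    exact invol_inv φ s hs hbot
  apply sqi_le_two_of_unique_invol
  · intro x y
    exact Subtype.ext (hcomm _ _)
  · intro s t hs ht hs1 ht1
    have hs' : (s : P) * (s : P) = 1 := by
      have h0 := congrArg Subtype.val hs
      rw [pow_two] at h0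
      exact h0
    have ht' : (t : P) * (t : P) = 1 := by
      have h0 := congrArg Subtype.val ht
      rw [pow_two] at h0
      exact h0
    have hs1' : (s : P) ≠ 1 := fun h => hs1 (Subtype.ext h)
    have ht1' : (t : P) ≠ 1 := fun h => ht1 (Subtype.ext h)
    apply Subtype.ext
    apply hφ
    ext v
    rw [hinv _ hs' hs1' v, hinv _ ht' ht1' v]

/-- If every subgroup of index `2` is irreducible, normal abelian subgroups act semiregularly. -/
theorem semiregular_of_normal_abelian [Finite V] [Finite P] (hφ : Function.Injective φ)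
    (hP : IsPGroup 2 P) (hodd : Odd (Nat.card V)) (hirr : Irr φ ⊤)
    (hb : ∀ M : Subgroup P, M.index = 2 → Irr φ M)
    (A : Subgroup P) [hAn : A.Normal] (hAab : ∀ a ∈ A, ∀ b ∈ A, a * b = b * a) :
    ∀ a ∈ A, a ≠ 1 → ∀ v, φ a v = v → v = 1 := by
  classical
  haveI : Fact (Nat.Prime 2) := ⟨Nat.prime_two⟩
  intro a haA ha1 v hav
  by_contra hv1
  have hfin : {K : Subgroup P | K ≤ A ∧ fixV φ K ≠ ⊥}.Finite := Set.toFinite _
  have hza : Subgroup.zpowers a ∈ {K : Subgroup P | K ≤ A ∧ fixV φ K ≠ ⊥} := by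
    refine ⟨(Subgroup.zpowers_le).mpr haA, ?_⟩
    intro h
    have h0 : v ∈ fixV φ (Subgroup.zpowers a) := by
      intro k hk
      have h1 : k ∈ stabE φ v := (Subgroup.zpowers_le (H := stabE φ v)).mpr hav hk
      exact h1
    rw [h, Subgroup.mem_bot] at h0
    exact hv1 h0
  obtain ⟨K, ⟨hKA, hKF⟩, hKmax⟩ :=
    Set.exists_max_image _ (fun K : Subgroup P => Nat.card K) hfin ⟨_, hza⟩
  -- K is nontrivial
  have hK1 : K ≠ ⊥ := by
    intro h
    have h0 : Nat.card (Subgroup.zpowers a) ≤ Nat.card K := hKmax (Subgroup.zpowers a) hza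
    rw [h, Subgroup.card_bot] at h0
    have h1 : Subgroup.zpowers a ≠ ⊥ := fun h2 => ha1 (Subgroup.zpowers_eq_bot.mp h2)
    have h2 := (Subgroup.one_lt_card_iff_ne_bot _).mpr h1
    omega
  obtain ⟨w₀, hw₀, hw₀1⟩ : ∃ w ∈ fixV φ K, w ≠ 1 := by
    by_contra h
    push Not at h
    exact hKF ((Subgroup.eq_bot_iff_forall _).mpr h)
  -- K is not normal
  have hNK : Subgroup.normalizer (K : Set P) ≠ ⊤ := by
    intro h
    have hKn : K.Normal := Subgroup.normalizer_eq_top_iff.mp h
    have hF : Inv φ ⊤ (fixV φ K) := by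
      intro m _ w hw k hk
      have h0 : m⁻¹ * k * m ∈ K := by
        have h1 := hKn.conj_mem k hk m⁻¹
        rwa [inv_inv] at h1
      have h1 : φ k (φ m w) = φ m (φ (m⁻¹ * k * m) w) := by
        rw [← MulAut.mul_apply, ← MulAut.mul_apply, ← map_mul, ← map_mul]
        congr 2
        group
      rw [h1, hw _ h0]
    rcases hirr _ hF with h0 | h0
    · exact hKF h0
    · apply hK1
      rw [eq_bot_iff]
      intro k hk
      rw [Subgroup.mem_bot]
      apply hφ
      rw [map_one]
      ext w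
      have h1 : w ∈ fixV φ K := by rw [h0]; exact Subgroup.mem_top w
      exact h1 k hk
  obtain ⟨M, hMco, hNM⟩ : ∃ M : Subgroup P, IsCoatom M ∧ Subgroup.normalizer (K : Set P) ≤ M := by
    rcases eq_top_or_exists_le_coatom (Subgroup.normalizer (K : Set P)) with h | h
    · exact absurd h hNK
    · exact h
  obtain ⟨hMn, hMi⟩ := Cfsg.Agent.Lib.Helper57.HSub.coatom_normal_index hP hMco
  have hMirr := hb M hMi
  obtain ⟨g, hg⟩ : ∃ g, g ∉ M := by
    by_contra h
    push Not at h
    exact hMco.1 (eq_top_iff.mpr (fun x _ => h x))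
  obtain ⟨μ, hμ1, hμ2, hμ3⟩ := exists_norm φ K
  -- the norm kills the translates of the fixed points by elements outside `M`
  have hkill : ∀ y : P, y ∉ M → ∀ w ∈ fixV φ K, μ (φ y w) = 1 := by
    intro y hy w hw
    by_contra hu
    have hSu : A ⊓ stabE φ (μ (φ y w)) ∈ {K : Subgroup P | K ≤ A ∧ fixV φ K ≠ ⊥} := by
      refine ⟨inf_le_left, ?_⟩
      intro h
      have h0 : μ (φ y w) ∈ fixV φ (A ⊓ stabE φ (μ (φ y w))) := fun k hk => hk.2
      rw [h, Subgroup.mem_bot] at h0
      exact hu h0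
    have hle : K ≤ A ⊓ stabE φ (μ (φ y w)) :=
      le_inf hKA (fun k hk => hμ1 _ k hk)
    have heq : K = A ⊓ stabE φ (μ (φ y w)) :=
      Subgroup.eq_of_le_of_card_ge hle (hKmax _ hSu)
    have hconj : ∀ k ∈ K, y * k * y⁻¹ ∈ K := by
      intro k hk
      rw [heq]
      refine ⟨hAn.conj_mem k (hKA hk) y, ?_⟩
      show φ (y * k * y⁻¹) (μ (φ y w)) = μ (φ y w)
      apply hμ3
      · intro k' hk'
        exact hAab _ (hAn.conj_mem k (hKA hk) y) _ (hKA hk')
      · rw [← MulAut.mul_apply, ← map_mul, inv_mul_cancel_right, map_mul, MulAut.mul_apply,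
          hw k hk]
    exact hy (hNM (mem_normalizer_of_conj_le K y hconj))
  -- the translates span `V`
  have hUinv : Inv φ M (⨆ m : ↥M, (fixV φ K).map (φ (g * (m : P))).toMonoidHom) := by
    intro m' hm' u hu
    have hle : (⨆ m : ↥M, (fixV φ K).map (φ (g * (m : P))).toMonoidHom) ≤
        (⨆ m : ↥M, (fixV φ K).map (φ (g * (m : P))).toMonoidHom).comap (φ m').toMonoidHom := by
      refine iSup_le (fun m => ?_)
      rintro _ ⟨w, hw, rfl⟩
      rw [Subgroup.mem_comap]
      have h0 : g⁻¹ * m' * g ∈ M := by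
        have h1 := hMn.conj_mem m' hm' g⁻¹
        rwa [inv_inv] at h1
      have h1 : (φ m').toMonoidHom ((φ (g * (m : P))).toMonoidHom w) =
          (φ (g * ((⟨g⁻¹ * m' * g * (m : P), M.mul_mem h0 m.2⟩ : ↥M) : P))).toMonoidHom w := by
        show φ m' (φ (g * (m : P)) w) = φ (g * (g⁻¹ * m' * g * (m : P))) w
        rw [← MulAut.mul_apply, ← map_mul]
        congr 2
        group
      rw [h1]
      exact Subgroup.mem_iSup_of_mem _ (Subgroup.mem_map_of_mem _ hw)
    exact hle hu
  have hU0 : (⨆ m : ↥M, (fixV φ K).map (φ (g * (m : P))).toMonoidHom) ≠ ⊥ := by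
    intro h
    have h0 : φ (g * ((1 : ↥M) : P)) w₀ ∈
        (⨆ m : ↥M, (fixV φ K).map (φ (g * (m : P))).toMonoidHom) :=
      Subgroup.mem_iSup_of_mem (1 : ↥M) (Subgroup.mem_map_of_mem _ hw₀)
    rw [h, Subgroup.mem_bot] at h0
    exact hw₀1 ((EmbeddingLike.map_eq_one_iff).mp h0)
  have hU : (⨆ m : ↥M, (fixV φ K).map (φ (g * (m : P))).toMonoidHom) = ⊤ :=
    (hMirr _ hUinv).resolve_left hU0
  have hker : (⨆ m : ↥M, (fixV φ K).map (φ (g * (m : P))).toMonoidHom) ≤ μ.ker := by
    refine iSup_le (fun m => ?_)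
    rintro _ ⟨w, hw, rfl⟩
    rw [MonoidHom.mem_ker]
    refine hkill (g * (m : P)) (fun h => hg ?_) w hw
    have h0 := M.mul_mem h (M.inv_mem m.2)
    rwa [mul_inv_cancel_right] at h0
  rw [hU] at hker
  have h1 : w₀ ^ Nat.card K = 1 := by
    rw [← hμ2 w₀ hw₀]
    exact MonoidHom.mem_ker.mp (hker (Subgroup.mem_top w₀))
  obtain ⟨j, hj⟩ := (IsPGroup.iff_card).mp (hP.to_subgroup K)
  have hcop : Nat.Coprime (Nat.card K) (Nat.card V) := by
    rw [hj]
    exact Nat.Coprime.pow_left j (Nat.coprime_two_left.mpr hodd)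
  have h2 : orderOf w₀ = 1 :=
    Nat.eq_one_of_dvd_coprimes hcop (orderOf_dvd_of_pow_eq_one h1) (orderOf_dvd_natCard w₀)
  exact hw₀1 (orderOf_eq_one_iff.mp h2)

end Act

end Cfsg.Agent.Lib.Helper90.Irr2
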