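import Mathlib
import Cfsg.Agent.Lib.Helper90.Irred2

set_option autoImplicit false

/-!
Main bound: an irreducible `2`-group `P` of automorphisms of an abelian group `V` of odd order
has `2 * sqi B ≤ |V|` for every subgroup `B`, unless `|V| = 3`.
-/

namespace Cfsg.Agent.Lib.Helper90.Irr2

universe u

/-- The imprimitive case: a subgroup of index `2` is reducible. -/
theorem case_a (n : ℕ)
    (ih : ∀ m < n, ∀ (V : Type u) [CommGroup V] [Finite V] (P : Type u) [Group P] [Finite P]
      (φ : P →* MulAut V), Function.Injective φ → Nat.card V = m → Odd m → m ≠ 1 →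
      IsPGroup 2 P → Irr φ ⊤ → m = 3 ∨ ∀ B : Subgroup P, 2 * sqi ↥B ≤ m)
    (V : Type u) [CommGroup V] [Finite V] (P : Type u) [Group P] [Finite P]
    (φ : P →* MulAut V) (hφ : Function.Injective φ) (hn : Nat.card V = n) (hodd : Odd n)
    (hP : IsPGroup 2 P) (hirr : Irr φ ⊤) (hsq : ∃ x : P, x ^ 2 ≠ 1)
    (M : Subgroup P) (hM : M.index = 2) (W : Subgroup V) (hW : Inv φ M W) (hW0 : W ≠ ⊥)
    (hW1 : W ≠ ⊤) : ∀ B : Subgroup P, 2 * sqi ↥B ≤ n := by
  classical
  haveI hMn : M.Normal := Subgroup.normal_of_index_eq_two hM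
  obtain ⟨V₁, ⟨hV1inv, hV1ne⟩, hV1min⟩ :=
    Set.exists_min_image {W' : Subgroup V | Inv φ M W' ∧ W' ≠ ⊥}
      (fun W' : Subgroup V => Nat.card W') (Set.toFinite _) ⟨W, hW, hW0⟩
  have hV1top : V₁ ≠ ⊤ := by
    intro h
    have h0 : Nat.card V₁ ≤ Nat.card W := hV1min W ⟨hW, hW0⟩
    rw [h, Subgroup.card_top] at h0
    exact hW1 ((Subgroup.card_eq_iff_eq_top W).mp
      (le_antisymm (Subgroup.card_le_card_group W) h0))
  have hmin' : ∀ W' : Subgroup V, W' ≤ V₁ → Inv φ M W' → W' = ⊥ ∨ W' = V₁ := by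
    intro W' hle hinv
    by_cases h : W' = ⊥
    · exact Or.inl h
    · exact Or.inr (Subgroup.eq_of_le_of_card_ge hle (hV1min W' ⟨hinv, h⟩))
  obtain ⟨g, hg⟩ : ∃ g, g ∉ M := by
    by_contra h
    push Not at h
    have h0 : M = ⊤ := eq_top_iff.mpr (fun x _ => h x)
    rw [h0, Subgroup.index_top] at hM
    omega
  have hginv : g⁻¹ ∉ M := fun h => hg (by simpa using M.inv_mem h)
  have hmem2 : ∀ w, w ∈ V₁.map (φ g).toMonoidHom ↔ ∃ w₁ ∈ V₁, φ g w₁ = w :=
    fun w => Subgroup.mem_map
  have hMV2 : ∀ m ∈ M, ∀ w ∈ V₁.map (φ g).toMonoidHom, φ m w ∈ V₁.map (φ g).toMonoidHom := by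
    intro m hm w hw
    obtain ⟨w₁, hw₁, rfl⟩ := (hmem2 w).mp hw
    have h0 : g⁻¹ * m * g ∈ M := by
      have h1 := hMn.conj_mem m hm g⁻¹
      rwa [inv_inv] at h1
    refine (hmem2 _).mpr ⟨φ (g⁻¹ * m * g) w₁, hV1inv _ h0 w₁ hw₁, ?_⟩
    rw [← MulAut.mul_apply, ← MulAut.mul_apply, ← map_mul, ← map_mul]
    congr 2
    group
  have hxV1 : ∀ x, x ∉ M → ∀ w ∈ V₁, φ x w ∈ V₁.map (φ g).toMonoidHom := by
    intro x hx w hw
    have h0 : g⁻¹ * x ∈ M :=
      (Subgroup.mul_mem_iff_of_index_two hM).mpr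
        ⟨fun h => absurd h hginv, fun h => absurd h hx⟩
    refine (hmem2 _).mpr ⟨φ (g⁻¹ * x) w, hV1inv _ h0 w hw, ?_⟩
    rw [← MulAut.mul_apply, ← map_mul, mul_inv_cancel_left]
  have hxV2 : ∀ x, x ∉ M → ∀ w ∈ V₁.map (φ g).toMonoidHom, φ x w ∈ V₁ := by
    intro x hx w hw
    obtain ⟨w₁, hw₁, rfl⟩ := (hmem2 w).mp hw
    have h0 : x * g ∈ M :=
      (Subgroup.mul_mem_iff_of_index_two hM).mpr ⟨fun h => absurd h hx, fun h => absurd h hg⟩
    rw [← MulAut.mul_apply, ← map_mul]
    exact hV1inv _ h0 w₁ hw₁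
  have hinf : V₁ ⊓ V₁.map (φ g).toMonoidHom = ⊥ := by
    have hI : Inv φ ⊤ (V₁ ⊓ V₁.map (φ g).toMonoidHom) := by
      intro x _ w hw
      by_cases hx : x ∈ M
      · exact ⟨hV1inv x hx w hw.1, hMV2 x hx w hw.2⟩
      · exact ⟨hxV2 x hx w hw.2, hxV1 x hx w hw.1⟩
    rcases hirr _ hI with h | h
    · exact h
    · exact absurd (top_le_iff.mp (h ▸ inf_le_left)) hV1top
  have hsup : V₁ ⊔ V₁.map (φ g).toMonoidHom = ⊤ := by
    have hI : Inv φ ⊤ (V₁ ⊔ V₁.map (φ g).toMonoidHom) := by
      intro x _ w hw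
      have hle : V₁ ⊔ V₁.map (φ g).toMonoidHom ≤
          (V₁ ⊔ V₁.map (φ g).toMonoidHom).comap (φ x).toMonoidHom := by
        by_cases hx : x ∈ M
        · exact sup_le (fun w hw => Subgroup.mem_sup_left (hV1inv x hx w hw))
            (fun w hw => Subgroup.mem_sup_right (hMV2 x hx w hw))
        · exact sup_le (fun w hw => Subgroup.mem_sup_right (hxV1 x hx w hw))
            (fun w hw => Subgroup.mem_sup_left (hxV2 x hx w hw))
      exact hle hw
    rcases hirr _ hI with h | h
    · exact absurd (le_bot_iff.mp (h ▸ le_sup_left)) hV1ne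
    · exact h
  have hcard2 : Nat.card (V₁.map (φ g).toMonoidHom) = Nat.card V₁ :=
    Subgroup.card_map_of_injective (φ g).injective
  have hcardV : Nat.card V₁ * Nat.card V₁ = n := by
    have hc : Subgroup.IsComplement' V₁ (V₁.map (φ g).toMonoidHom) := by
      apply Subgroup.isComplement'_of_disjoint_and_mul_eq_univ (disjoint_iff.mpr hinf)
      rw [← Subgroup.mul_normal, hsup, Subgroup.coe_top]
    have h0 := hc.card_mul_card
    rw [hcard2, hn] at h0
    exact h0
  let ρ : ↥M →* MulAut ↥V₁ := resAut φ M V₁ hV1inv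
  let cg : ↥M →* ↥M := (MulAut.conjNormal (H := M) g⁻¹).toMonoidHom
  have hcg : ∀ k : ↥M, ((cg k : ↥M) : P) = g⁻¹ * k * g := by
    intro k
    have h0 := MulAut.conjNormal_apply (H := M) g⁻¹ k
    rw [inv_inv] at h0
    exact h0
  have hK : ∀ k : ↥M, ρ k = 1 → ρ (cg k) = 1 → k = 1 := by
    intro k h1 h2
    have h3 : V₁ ≤ fixE φ (k : P) := by
      intro w hw
      have h0 := congrArg (fun σ : MulAut ↥V₁ => ((σ ⟨w, hw⟩ : ↥V₁) : V)) h1
      exact h0
    have h4 : V₁.map (φ g).toMonoidHom ≤ fixE φ (k : P) := by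
      intro w hw
      obtain ⟨w₁, hw₁, rfl⟩ := (hmem2 w).mp hw
      have h5 := congrArg (fun σ : MulAut ↥V₁ => ((σ ⟨w₁, hw₁⟩ : ↥V₁) : V)) h2
      have h6 : φ (g⁻¹ * (k : P) * g) w₁ = w₁ := by
        rw [← hcg]
        exact h5
      show φ (k : P) (φ g w₁) = φ g w₁
      conv_rhs => rw [← h6]
      rw [← MulAut.mul_apply, ← MulAut.mul_apply, ← map_mul, ← map_mul]
      congr 2
      group
    have h7 : fixE φ (k : P) = ⊤ := top_le_iff.mp (hsup ▸ sup_le h3 h4)
    apply Subtype.ext
    apply hφ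
    rw [Subgroup.coe_one, map_one]
    ext w
    have h8 : w ∈ fixE φ (k : P) := by rw [h7]; exact Subgroup.mem_top w
    exact h8
  have hc1 : Nat.card V₁ < n := by
    rw [← hn]
    exact lt_of_le_of_ne (Subgroup.card_le_card_group V₁)
      (fun h => hV1top ((Subgroup.card_eq_iff_eq_top V₁).mp h))
  have hodd1 : Odd (Nat.card V₁) := by
    have h0 := Subgroup.card_subgroup_dvd_card V₁
    rw [hn] at h0
    exact Odd.of_dvd_nat hodd h0
  have hne1 : Nat.card V₁ ≠ 1 := fun h => hV1ne (Subgroup.card_eq_one.mp h)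
  have hA1 : IsPGroup 2 ↥ρ.range :=
    IsPGroup.of_surjective (hP.to_subgroup M) ρ.rangeRestrict ρ.rangeRestrict_surjective
  have hirr1 : Irr ρ.range.subtype ⊤ := by
    intro W' hW'
    have hI : Inv φ M (W'.map V₁.subtype) := by
      intro m hm w hw
      obtain ⟨w', hw', rfl⟩ := hw
      have h0 : (ρ ⟨m, hm⟩) w' ∈ W' :=
        hW' ⟨ρ ⟨m, hm⟩, ⟨⟨m, hm⟩, rfl⟩⟩ (Subgroup.mem_top _) w' hw'
      exact ⟨_, h0, rfl⟩
    rcases hmin' _ (Subgroup.map_subtype_le W') hI with h | h
    · left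
      exact (Subgroup.map_eq_bot_iff_of_injective W' V₁.subtype_injective).mp h
    · right
      rw [eq_top_iff]
      intro w _
      have h0 : (w : V) ∈ W'.map V₁.subtype := by rw [h]; exact w.2
      obtain ⟨w', hw', hww⟩ := h0
      have h1 : w' = w := Subtype.ext hww
      rw [← h1]
      exact hw'
  have hIH := ih (Nat.card V₁) hc1 ↥V₁ ↥ρ.range ρ.range.subtype
    (Subgroup.subtype_injective _) rfl hodd1 hne1 hA1 hirr1
  intro B
  rcases hIH with h3 | hih
  · -- `|V₁| = 3`
    have hn9 : n = 9 := by rw [← hcardV, h3]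
    haveI : Fact (Nat.Prime 3) := ⟨Nat.prime_three⟩
    haveI : IsCyclic ↥V₁ := isCyclic_of_prime_card h3
    have hAut : Nat.card (MulAut ↥V₁) ≤ 2 := card_mulAut_le_two (by omega)
    have hMcard : Nat.card M ≤ 4 := by
      have hinj : Function.Injective (ρ.prod (ρ.comp cg)) := by
        rw [injective_iff_map_eq_one]
        intro k hk
        have h1 : ρ k = 1 := congrArg Prod.fst hk
        have h2 : ρ (cg k) = 1 := congrArg Prod.snd hk
        exact hK k h1 h2
      have h1 := Nat.card_le_card_of_injective _ hinj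
      rw [Nat.card_prod] at h1
      have h2 : Nat.card (MulAut ↥V₁) * Nat.card (MulAut ↥V₁) ≤ 2 * 2 :=
        Nat.mul_le_mul hAut hAut
      omega
    have hPcard : Nat.card P ≤ 8 := by
      have h0 := Subgroup.card_mul_index M
      rw [hM] at h0
      omega
    by_cases hB : B = ⊤
    · subst hB
      obtain ⟨x, hx⟩ := hsq
      have h1 := two_mul_sqi_le_card x hx
      rw [sqi_congr (Subgroup.topEquiv : ↥(⊤ : Subgroup P) ≃* P)]
      omega
    · have h1 : B.index ≠ 1 := fun h => hB (Subgroup.index_eq_one.mp h)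
      have h2 := Subgroup.card_mul_index B
      have h3' : B.index ≠ 0 := Subgroup.index_ne_zero_of_finite
      have h4 : Nat.card B ≤ 4 := by
        by_contra hc
        push Not at hc
        have h5 : 2 ≤ B.index := by omega
        have h6 : 5 * 2 ≤ Nat.card B * B.index := Nat.mul_le_mul hc h5
        omega
      have h5 := sqi_le_card ↥B
      omega
  · -- generic case
    let f : ↥(B ⊓ M) →* ↥ρ.range :=
      ρ.rangeRestrict.comp (Subgroup.inclusion (inf_le_right : B ⊓ M ≤ M))
    have h1 : sqi ↥B ≤ (B ⊓ M).relIndex B * sqi ↥(B ⊓ M : Subgroup P) :=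
      sqi_le_relIndex_mul _ _ inf_le_left
    have h2 : (B ⊓ M).relIndex B ≤ 2 := by
      rw [Subgroup.inf_relIndex_left]
      have h0 : M.relIndex B ∣ M.index := Subgroup.relIndex_dvd_index_of_normal M B
      rw [hM] at h0
      exact Nat.le_of_dvd (by norm_num) h0
    have h3 : sqi ↥(B ⊓ M : Subgroup P) ≤ sqi ↥f.ker * sqi ↥f.range := sqi_le_ker_mul_range f
    have h4 : 2 * sqi ↥f.range ≤ Nat.card V₁ := hih f.range
    let f₃ : ↥f.ker →* ↥ρ.range :=
      (ρ.rangeRestrict.comp (cg.comp (Subgroup.inclusion (inf_le_right : B ⊓ M ≤ M)))).comp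
        f.ker.subtype
    have hf₃ : Function.Injective f₃ := by
      rw [injective_iff_map_eq_one]
      intro k hk
      have hk1 : f (k : ↥(B ⊓ M : Subgroup P)) = 1 := MonoidHom.mem_ker.mp k.2
      have e1 : ρ (Subgroup.inclusion (inf_le_right : B ⊓ M ≤ M) (k : ↥(B ⊓ M : Subgroup P)))
          = 1 := by
        have h0 := congrArg Subtype.val hk1
        exact h0
      have e2 : ρ (cg (Subgroup.inclusion (inf_le_right : B ⊓ M ≤ M)
          (k : ↥(B ⊓ M : Subgroup P)))) = 1 := by
        have h0 := congrArg Subtype.val hk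
        exact h0
      have e3 := hK _ e1 e2
      have e4 : (k : ↥(B ⊓ M : Subgroup P)) = 1 := by
        apply Subgroup.inclusion_injective (inf_le_right : B ⊓ M ≤ M)
        rw [e3, map_one]
      exact Subtype.ext e4
    have h5 : sqi ↥f.ker = sqi ↥f₃.range := sqi_eq_of_injective f₃ hf₃
    have h6 : 2 * sqi ↥f₃.range ≤ Nat.card V₁ := hih f₃.range
    rw [← h5] at h6
    have h7 : sqi ↥B ≤ 2 * (sqi ↥f.ker * sqi ↥f.range) := h1.trans (Nat.mul_le_mul h2 h3)
    have h8 : (2 * sqi ↥f.ker) * (2 * sqi ↥f.range) ≤ Nat.card V₁ * Nat.card V₁ :=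
      Nat.mul_le_mul h6 h4
    rw [hcardV] at h8
    calc 2 * sqi ↥B ≤ 2 * (2 * (sqi ↥f.ker * sqi ↥f.range)) := Nat.mul_le_mul_left 2 h7
      _ = (2 * sqi ↥f.ker) * (2 * sqi ↥f.range) := by ring
      _ ≤ n := h8

/-- The primitive case: every subgroup of index `2` is irreducible. -/
theorem case_b (V : Type u) [CommGroup V] [Finite V] (P : Type u) [Group P] [Finite P]
    (φ : P →* MulAut V) (hφ : Function.Injective φ) (hn9 : 9 ≤ Nat.card V)
    (hodd : Odd (Nat.card V)) (hP : IsPGroup 2 P) (hirr : Irr φ ⊤)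
    (hb : ∀ M : Subgroup P, M.index = 2 → Irr φ M) :
    ∀ B : Subgroup P, 2 * sqi ↥B ≤ Nat.card V := by
  classical
  haveI : Fact (Nat.Prime 2) := ⟨Nat.prime_two⟩
  obtain ⟨A, ⟨hAn, hAab⟩, hAmax⟩ :=
    Set.exists_max_image {A : Subgroup P | A.Normal ∧ ∀ a ∈ A, ∀ b ∈ A, a * b = b * a}
      (fun A : Subgroup P => Nat.card A) (Set.toFinite _)
      ⟨⊥, Subgroup.normal_bot, fun a ha b hb => by
        rw [Subgroup.mem_bot.mp ha, Subgroup.mem_bot.mp hb]⟩
  haveI := hAn
  have hcent : Subgroup.centralizer (A : Set P) ≤ A :=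
    Cfsg.Agent.Lib.Helper4.centralizer_le_of_max_normal_abelian hP A hAab
      (fun B hBn hBab hAB => (Subgroup.eq_of_le_of_card_ge hAB (hAmax B ⟨hBn, hBab⟩)).symm)
  have hsemi := semiregular_of_normal_abelian φ hφ hP hodd hirr hb A hAab
  have hinv : ∀ s ∈ A, s * s = 1 → s ≠ 1 → ∀ v, φ s v = v⁻¹ := by
    intro s hsA hs hs1
    apply invol_inv φ s hs
    rw [eq_bot_iff]
    intro v hv
    rw [Subgroup.mem_bot]
    exact hsemi s hsA hs1 v hv
  have huniq : ∀ s ∈ A, ∀ t ∈ A, s * s = 1 → t * t = 1 → s ≠ 1 → t ≠ 1 → s = t := by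
    intro s hsA t htA hs ht hs1 ht1
    apply hφ
    ext v
    rw [hinv s hsA hs hs1 v, hinv t htA ht ht1 v]
  obtain ⟨z, hz⟩ : ∃ z : P, ∀ a ∈ A, a * a = 1 → a = 1 ∨ a = z := by
    by_cases h : ∃ s ∈ A, s * s = 1 ∧ s ≠ 1
    · obtain ⟨s, hsA, hs, hs1⟩ := h
      refine ⟨s, fun a ha haa => ?_⟩
      by_cases ha1 : a = 1
      · exact Or.inl ha1
      · exact Or.inr (huniq a ha s hsA haa hs ha1 hs1)
    · push Not at h
      exact ⟨1, fun a ha haa => Or.inl (h a ha haa)⟩
  obtain ⟨g₀, hg₀A, hgen⟩ :=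
    Cfsg.Agent.Lib.Helper4.exists_generator_of_unique_involution hP A hAab hz
  haveI hcyc : IsCyclic ↥A := by
    refine ⟨⟨⟨g₀, hg₀A⟩, fun a => ?_⟩⟩
    obtain ⟨i, hi⟩ := Subgroup.mem_zpowers_iff.mp (hgen a a.2)
    exact Subgroup.mem_zpowers_iff.mpr ⟨i, Subtype.ext (by rw [Subgroup.coe_zpow]; exact hi)⟩
  obtain ⟨k, hk⟩ := (IsPGroup.iff_card).mp (hP.to_subgroup A)
  have hdiv : Nat.card A ∣ Nat.card V - 1 :=
    card_dvd_sub_one_of_semiregular (φ.comp A.subtype)
      (fun q hq v hv => hsemi q q.2 (fun h => hq (Subtype.ext h)) v hv)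
  let c : P →* MulAut ↥A := MulAut.conjNormal
  have hcapp : ∀ (x : P) (a : ↥A), ((c x a : ↥A) : P) = x * a * x⁻¹ :=
    fun x a => MulAut.conjNormal_apply x a
  have hker : ∀ x : P, c x = 1 → x ∈ A := by
    intro x hx
    apply hcent
    rw [Subgroup.mem_centralizer_iff]
    intro a ha
    have h0 := congrArg (fun σ : MulAut ↥A => ((σ ⟨a, ha⟩ : ↥A) : P)) hx
    have h1 : x * a * x⁻¹ = a := by
      rw [← hcapp x ⟨a, ha⟩]
      exact h0
    calc a * x = x * a * x⁻¹ * x := by rw [h1]
      _ = x * a := by group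
  intro B
  let f : ↥B →* MulAut ↥A := c.comp B.subtype
  have h1 := sqi_le_ker_mul_range f
  have h2 : sqi ↥f.ker ≤ 2 := by
    have hmemA : ∀ x : ↥f.ker, ((x : ↥B) : P) ∈ A := fun x => hker _ (MonoidHom.mem_ker.mp x.2)
    apply sqi_le_two_of_unique_invol
    · intro x y
      exact Subtype.ext (Subtype.ext (hAab _ (hmemA x) _ (hmemA y)))
    · intro s t hs ht hs1 ht1
      have hs' : ((s : ↥B) : P) * ((s : ↥B) : P) = 1 := by
        have h0 := congrArg (fun x : ↥f.ker => ((x : ↥B) : P)) hs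
        simpa [pow_two] using h0
      have ht' : ((t : ↥B) : P) * ((t : ↥B) : P) = 1 := by
        have h0 := congrArg (fun x : ↥f.ker => ((x : ↥B) : P)) ht
        simpa [pow_two] using h0
      exact Subtype.ext (Subtype.ext (huniq _ (hmemA s) _ (hmemA t) hs' ht'
        (fun h => hs1 (Subtype.ext (Subtype.ext h)))
        (fun h => ht1 (Subtype.ext (Subtype.ext h)))))
  have h3 : sqi ↥f.range ≤ 4 :=
    sqi_le_four_of_cyclic hk f.range.subtype (Subgroup.subtype_injective _)
  rcases Nat.lt_or_ge k 3 with hk3 | hk3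
  · have hA4 : Nat.card A ≤ 4 := by
      rw [hk]
      interval_cases k <;> norm_num
    have h4 : sqi ↥f.range ≤ 2 :=
      (sqi_le_card _).trans ((Subgroup.card_le_card_group _).trans (card_mulAut_le_two hA4))
    have h5 : sqi ↥f.ker * sqi ↥f.range ≤ 2 * 2 := Nat.mul_le_mul h2 h4
    have h6 := h1.trans h5
    omega
  · have h8 : 8 ∣ Nat.card V - 1 := by
      refine dvd_trans ?_ hdiv
      rw [hk]
      exact pow_dvd_pow 2 hk3
    by_cases h17 : 17 ≤ Nat.card V
    · have h5 : sqi ↥f.ker * sqi ↥f.range ≤ 2 * 4 := Nat.mul_le_mul h2 h3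
      have h6 := h1.trans h5
      omega
    · have hV9 : Nat.card V = 9 := by
        obtain ⟨t, ht⟩ := h8
        omega
      have hA8 : Nat.card A = 8 := by
        have h0 : Nat.card A ∣ 8 := by
          rw [hV9] at hdiv
          exact hdiv
        have h1 : 8 ∣ Nat.card A := by
          rw [hk]
          exact pow_dvd_pow 2 hk3
        exact Nat.dvd_antisymm h0 h1
      obtain ⟨v, hv⟩ : ∃ v : V, v ≠ 1 := by
        by_contra h
        push Not at h
        haveI : Subsingleton V := ⟨fun a b => by rw [h a, h b]⟩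
        have h0 := Nat.card_of_subsingleton (1 : V)
        omega
      have hP16 : Nat.card P ≤ 16 := by
        letI : MulAction P V := MulAction.compHom V φ
        have hsmul : ∀ (q : P) (w : V), q • w = φ q w := fun _ _ => rfl
        have hidx : (MulAction.stabilizer P v).index = (MulAction.orbit P v).ncard :=
          MulAction.index_stabilizer P v
        have hcm := Subgroup.card_mul_index (MulAction.stabilizer P v)
        have hst : Nat.card (MulAction.stabilizer P v) ≤ 2 :=
          card_stab_le_two (φ.comp (MulAction.stabilizer P v).subtype)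
            (hφ.comp (Subgroup.subtype_injective _)) (hP.to_subgroup _) hV9 v hv
            (fun q => q.2)
        have horb : (MulAction.orbit P v).ncard ≤ 8 := by
          have hsub : MulAction.orbit P v ⊆ ({1}ᶜ : Set V) := by
            rintro _ ⟨x, rfl⟩
            intro h
            have h0 : φ x v = 1 := h
            exact hv ((EmbeddingLike.map_eq_one_iff).mp h0)
          have h0 := Set.ncard_le_ncard hsub (Set.toFinite _)
          have h1 := Set.ncard_add_ncard_compl ({1} : Set V)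
          rw [Set.ncard_singleton] at h1
          omega
        rw [← hidx] at horb
        calc Nat.card P
            = Nat.card (MulAction.stabilizer P v) * (MulAction.stabilizer P v).index := hcm.symm
          _ ≤ 2 * 8 := Nat.mul_le_mul hst horb
      have h5 : Nat.card c.range ≤ 2 := by
        have hAk : A ≤ c.ker := by
          intro a ha
          rw [MonoidHom.mem_ker]
          ext b
          rw [hcapp]
          show a * (b : P) * a⁻¹ = (b : P)
          rw [hAab a ha b b.2, mul_inv_cancel_right]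
        have h0 : c.ker.index ∣ A.index := Subgroup.index_dvd_of_le hAk
        have h1 := Subgroup.card_mul_index A
        rw [hA8] at h1
        have h2 : A.index ≤ 2 := by omega
        have h3 : A.index ≠ 0 := Subgroup.index_ne_zero_of_finite
        rw [← Subgroup.index_ker]
        exact (Nat.le_of_dvd (Nat.pos_of_ne_zero h3) h0).trans h2
      have h4 : sqi ↥f.range ≤ 2 := by
        have hle : f.range ≤ c.range := by
          rintro _ ⟨x, rfl⟩
          exact ⟨(x : P), rfl⟩
        exact (sqi_le_card _).trans ((Subgroup.card_le_of_le hle).trans h5)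
      have h6 : sqi ↥f.ker * sqi ↥f.range ≤ 2 * 2 := Nat.mul_le_mul h2 h4
      have h7 := h1.trans h6
      omega

/-- **Main bound.**  An irreducible `2`-group `P` of automorphisms of an abelian group `V` of odd
order `n ≠ 1`: either `n = 3` or `2 * sqi B ≤ n` for all subgroups `B` of `P`. -/
theorem main_bound : ∀ (n : ℕ) (V : Type u) [CommGroup V] [Finite V] (P : Type u) [Group P]
    [Finite P] (φ : P →* MulAut V), Function.Injective φ → Nat.card V = n → Odd n → n ≠ 1 →
    IsPGroup 2 P → Irr φ ⊤ → n = 3 ∨ ∀ B : Subgroup P, 2 * sqi ↥B ≤ n := by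
  intro n
  induction n using Nat.strong_induction_on with
  | _ n ih =>
    intro V _ _ P _ _ φ hφ hn hodd hn1 hP hirr
    by_cases hcomm : ∀ x y : P, x * y = y * x
    · by_cases h3 : n = 3
      · exact Or.inl h3
      · right
        intro B
        have h0 := bound_of_comm φ hφ hirr hcomm B
        obtain ⟨t, ht⟩ := hodd
        omega
    · right
      have hnp : ¬ n.Prime := by
        intro hp
        apply hcomm
        intro x y
        apply hφ
        rw [map_mul, map_mul]
        haveI := Fact.mk hp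
        haveI : IsCyclic V := isCyclic_of_prime_card hn
        exact mulAut_cyclic_comm _ _
      have hn9 : 9 ≤ n := by
        rcases Nat.lt_or_ge n 9 with h | h
        · exfalso
          rw [Nat.odd_iff] at hodd
          interval_cases n <;> first | omega | exact hnp (by norm_num)
        · exact h
      have hsq : ∃ x : P, x ^ 2 ≠ 1 := by
        by_contra h
        push Not at h
        apply hcomm
        have hinv : ∀ x : P, x⁻¹ = x := fun x =>
          inv_eq_of_mul_eq_one_left (by rw [← pow_two]; exact h x)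
        intro x y
        calc x * y = (x * y)⁻¹ := (hinv _).symm
          _ = y⁻¹ * x⁻¹ := mul_inv_rev _ _
          _ = y * x := by rw [hinv, hinv]
      by_cases ha : ∃ M : Subgroup P, M.index = 2 ∧
          ∃ W : Subgroup V, Inv φ M W ∧ W ≠ ⊥ ∧ W ≠ ⊤
      · obtain ⟨M, hM, W, hW, hW0, hW1⟩ := ha
        exact case_a n ih V P φ hφ hn hodd hP hirr hsq M hM W hW hW0 hW1
      · have hb : ∀ M : Subgroup P, M.index = 2 → Irr φ M := by
          intro M hM W hW
          by_contra hc
          push Not at hc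
          exact ha ⟨M, hM, W, hW, hc.1, hc.2⟩
        subst hn
        exact case_b V P φ hφ hn9 hodd hP hirr hb

/-- Version for a group `V` with a commutativity hypothesis, and for `B = P`. -/
theorem main_bound' (V : Type u) [Group V] [Finite V] (hc : ∀ a b : V, a * b = b * a)
    (P : Type u) [Group P] [Finite P] (φ : P →* MulAut V) (hφ : Function.Injective φ)
    (hodd : Odd (Nat.card V)) (h1 : Nat.card V ≠ 1) (hP : IsPGroup 2 P)
    (hirr : ∀ W : Subgroup V, (∀ x : P, ∀ w ∈ W, φ x w ∈ W) → W = ⊥ ∨ W = ⊤) :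
    Nat.card V = 3 ∨ 2 * sqi P ≤ Nat.card V := by
  letI : CommGroup V := { ‹Group V› with mul_comm := hc }
  have hirr' : Irr φ ⊤ := fun W hW => hirr W (fun x w hw => hW x (Subgroup.mem_top x) w hw)
  rcases main_bound (Nat.card V) V P φ hφ rfl hodd h1 hP hirr' with h | h
  · exact Or.inl h
  · right
    have h2 := h ⊤
    rw [sqi_congr (Subgroup.topEquiv : ↥(⊤ : Subgroup P) ≃* P)] at h2
    exact h2

end Cfsg.Agent.Lib.Helper90.Irr2
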