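import Mathlib
import Cfsg.Prelude.Def_HallClasses
import Cfsg.Agent.Lib.Helper1.Tools
import Cfsg.Agent.Lib.Helper90.Conj

/-!
# Pronormal subgroups: basic calculus
-/

set_option autoImplicit false

namespace Cfsg.Agent.Lib.Helper90

section cj
variable {G : Type*} [Group G]

local notation "cj(" g "," H ")" => Subgroup.map (MulEquiv.toMonoidHom (MulAut.conj g)) H

theorem cj_mul (H : Subgroup G) (a b : G) : cj(a * b, H) = cj(a, cj(b, H)) := by
  rw [Subgroup.map_map]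
  congr 1
  ext y
  simp [mul_assoc]

theorem cj_one (H : Subgroup G) : cj((1 : G), H) = H := by
  ext y
  simp

theorem mem_cj (H : Subgroup G) (g x : G) : x ∈ cj(g, H) ↔ g⁻¹ * x * g ∈ H :=
  mem_map_conj_iff H g x

theorem cj_of_mem_normalizer (H : Subgroup G) (n : G)
    (h : n ∈ Subgroup.normalizer (H : Set G)) : cj(n, H) = H := by
  rw [Subgroup.mem_normalizer_iff_map_conj_eq] at h
  exact h

theorem cj_of_mem (H : Subgroup G) (h : G) (hh : h ∈ H) : cj(h, H) = H :=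
  cj_of_mem_normalizer H h (Subgroup.le_normalizer hh)

theorem mem_normalizer_of_cj_eq (H : Subgroup G) (g x : G) (h : cj(g, H) = cj(x, H)) :
    x⁻¹ * g ∈ Subgroup.normalizer (H : Set G) := by
  rw [Subgroup.mem_normalizer_iff_map_conj_eq]
  have h1 := cj_mul H x⁻¹ g
  rw [h, ← cj_mul, inv_mul_cancel, cj_one] at h1
  exact h1

theorem cj_le_of_mem (H J : Subgroup G) (a : G) (ha : a ∈ J) (hH : H ≤ J) : cj(a, H) ≤ J := by
  rintro y ⟨h, hh, rfl⟩
  simp only [MulEquiv.toMonoidHom_eq_coe, MonoidHom.coe_coe, MulAut.conj_apply]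
  exact J.mul_mem (J.mul_mem ha (hH hh)) (J.inv_mem ha)

theorem cj_normal (N : Subgroup G) [N.Normal] (g : G) : cj(g, N) = N := by
  apply cj_of_mem_normalizer
  rw [Subgroup.normalizer_eq_top]
  trivial

theorem map_cj {G' : Type*} [Group G'] (f : G →* G') (H : Subgroup G) (g : G) :
    (cj(g, H)).map f = cj(f g, H.map f) := by
  rw [Subgroup.map_map, Subgroup.map_map]
  congr 1
  ext y
  simp

theorem subgroupOf_cj (H A : Subgroup G) (a : A) :
    cj(a, H.subgroupOf A) = (cj((a : G), H)).subgroupOf A := by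
  ext y
  simp only [Subgroup.mem_map, Subgroup.mem_subgroupOf, MulEquiv.toMonoidHom_eq_coe,
    MonoidHom.coe_coe, MulAut.conj_apply]
  constructor
  · rintro ⟨h, hh, rfl⟩
    exact ⟨(h : G), hh, by simp⟩
  · rintro ⟨h, hh, hy⟩
    refine ⟨a⁻¹ * y * a, ?_, ?_⟩
    · have : ((a⁻¹ * y * a : A) : G) = h := by
        simp only [Subgroup.coe_mul, Subgroup.coe_inv, ← hy]
        group
      rw [this]
      exact hh
    · group

/-- Chain lemma for pronormality witnesses. -/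
theorem pron_chain (H : Subgroup G) (g y g' : G) (hg : g = y * g') (hy : y ∈ H ⊔ cj(g, H))
    (h : ∃ z ∈ H ⊔ cj(g', H), cj(g', H) = cj(z, H)) :
    ∃ x ∈ H ⊔ cj(g, H), cj(g, H) = cj(x, H) := by
  obtain ⟨z, hz, hzH⟩ := h
  have h1 : cj(g, H) = cj(y, cj(g', H)) := by rw [hg, cj_mul]
  refine ⟨y * z, ?_, ?_⟩
  · apply Subgroup.mul_mem _ hy
    have h2 : cj(g', H) ≤ H ⊔ cj(g, H) := by
      have h3 : g' = y⁻¹ * g := by
        rw [hg]
        group
      rw [h3, cj_mul]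
      exact cj_le_of_mem _ _ _ (Subgroup.inv_mem _ hy) le_sup_right
    exact (sup_le le_sup_left h2) hz
  · rw [h1, hzH, ← cj_mul]

theorem isPronormal_map {X Y : Type*} [Group X] [Group Y] (f : X →* Y)
    (hf : Function.Surjective f) (H : Subgroup X) (h : Cfsg.IsPronormal H) :
    Cfsg.IsPronormal (H.map f) := by
  intro y
  obtain ⟨g, rfl⟩ := hf y
  obtain ⟨x, hx, hxH⟩ := h g
  refine ⟨f x, ?_, ?_⟩
  · rw [← map_cj, ← Subgroup.map_sup]
    exact Subgroup.mem_map_of_mem f hx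
  · rw [← map_cj, ← map_cj, hxH]

theorem isPronormal_of_map {X Y : Type*} [Group X] [Group Y] (f : X →* Y)
    (H : Subgroup X) (hker : f.ker ≤ H) (h : Cfsg.IsPronormal (H.map f)) :
    Cfsg.IsPronormal H := by
  intro g
  obtain ⟨y, hy, hyH⟩ := h (f g)
  rw [← map_cj, ← Subgroup.map_sup] at hy
  obtain ⟨x, hx, rfl⟩ := hy
  refine ⟨x, hx, ?_⟩
  rw [← map_cj, ← map_cj] at hyH
  have hk : ∀ u : X, f.ker ≤ cj(u, H) := by
    intro u
    have h1 : cj(u, f.ker) = f.ker := cj_normal _ u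
    rw [← h1]
    exact Subgroup.map_mono hker
  have h2 := congrArg (Subgroup.comap f) hyH
  rwa [Subgroup.comap_map_eq_self (hk g), Subgroup.comap_map_eq_self (hk x)] at h2

theorem isPronormal_subgroupOf (N H : Subgroup G) (hHN : H ≤ N) (h : Cfsg.IsPronormal H) :
    Cfsg.IsPronormal (H.subgroupOf N) := by
  intro a
  obtain ⟨x, hx, hxH⟩ := h (a : G)
  have hle : cj((a : G), H) ≤ N := cj_le_of_mem H N a a.2 hHN
  have hxN : x ∈ N := (sup_le hHN hle) hx
  refine ⟨⟨x, hxN⟩, ?_, ?_⟩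
  · rw [subgroupOf_cj, ← Subgroup.subgroupOf_sup hHN hle]
    exact hx
  · rw [subgroupOf_cj, subgroupOf_cj, hxH]

theorem pron_of_subgroupOf (N H : Subgroup G) (hHN : H ≤ N)
    (h : Cfsg.IsPronormal (H.subgroupOf N)) (a : G) (ha : a ∈ N) :
    ∃ x ∈ H ⊔ cj(a, H), cj(a, H) = cj(x, H) := by
  obtain ⟨x, hx, hxH⟩ := h ⟨a, ha⟩
  have hle : cj(a, H) ≤ N := cj_le_of_mem H N a ha hHN
  have hle' : cj((x : G), H) ≤ N := cj_le_of_mem H N x x.2 hHN
  rw [subgroupOf_cj, ← Subgroup.subgroupOf_sup hHN hle] at hx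
  rw [subgroupOf_cj, subgroupOf_cj, Subgroup.subgroupOf_inj, inf_of_le_left hle,
    inf_of_le_left hle'] at hxH
  exact ⟨(x : G), hx, hxH⟩

theorem isPronormal_cj (H : Subgroup G) (c : G) (h : Cfsg.IsPronormal H) :
    Cfsg.IsPronormal (cj(c, H)) := by
  intro g
  obtain ⟨x, hx, hxH⟩ := h (c⁻¹ * g * c)
  refine ⟨c * x * c⁻¹, ?_, ?_⟩
  · have h1 : c * x * c⁻¹ ∈ cj(c, H ⊔ cj(c⁻¹ * g * c, H)) := by
      rw [mem_cj]
      have : c⁻¹ * (c * x * c⁻¹) * c = x := by group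
      rw [this]
      exact hx
    rw [Subgroup.map_sup, ← cj_mul] at h1
    have h2 : c * (c⁻¹ * g * c) = g * c := by group
    rw [h2, cj_mul] at h1
    exact h1
  · rw [← cj_mul, ← cj_mul]
    have h2 : g * c = c * (c⁻¹ * g * c) := by group
    have h3 : c * x * c⁻¹ * c = c * x := by group
    rw [h2, h3, cj_mul, hxH, ← cj_mul]

theorem card_cj (H : Subgroup G) (g : G) : Nat.card ↥(cj(g, H)) = Nat.card H :=
  (Nat.card_congr (Subgroup.equivMapOfInjective H _ (MulAut.conj g).injective).toEquiv).symm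

theorem sylow_isPronormal [Finite G] {p : ℕ} [Fact p.Prime] (S : Sylow p G) :
    Cfsg.IsPronormal (S : Subgroup G) := by
  have hp : p.Prime := Fact.out
  intro g
  have h1 : (S : Subgroup G) ≤ (S : Subgroup G) ⊔ cj(g, (S : Subgroup G)) := le_sup_left
  have h2 : cj(g, (S : Subgroup G)) ≤ (S : Subgroup G) ⊔ cj(g, (S : Subgroup G)) := le_sup_right
  have hc1 : Nat.card (S : Subgroup G) = p ^ (Nat.card G).factorization p :=
    S.card_eq_multiplicity
  have hc2 : Nat.card ↥(cj(g, (S : Subgroup G))) = p ^ (Nat.card G).factorization p := by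
    rw [card_cj, hc1]
  have hM : ¬ p ^ ((Nat.card G).factorization p + 1) ∣
      Nat.card ↥((S : Subgroup G) ⊔ cj(g, (S : Subgroup G))) := fun h =>
    (Nat.pow_succ_factorization_not_dvd Nat.card_pos.ne' hp)
      (h.trans (Subgroup.card_subgroup_dvd_card _))
  obtain ⟨x, hx, hxS⟩ := Cfsg.Agent.Lib.Helper1.exists_conj_of_card_eq_pow p h1 h2 _ hc1 hc2 hM
  exact ⟨x, hx, hxS.symm⟩

end cj

end Cfsg.Agent.Lib.Helper90
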