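import Mathlib
import Cfsg.Prelude.Def_HallClasses
import Cfsg.Agent.Lib.Helper90.Pronormal
import Cfsg.Agent.Lib.Helper90.SylowAux

/-!
# The Kondrat'ev–Maslova–Revin reduction for pronormality of overgroups of Sylow subgroups
-/

set_option autoImplicit false
set_option linter.unusedSectionVars false

namespace Cfsg.Agent.Lib.Helper90

section sylT
variable {G : Type*} [Group G] [Finite G] {p : ℕ} [Fact p.Prime]

local notation "cj(" g "," H ")" => Subgroup.map (MulEquiv.toMonoidHom (MulAut.conj g)) H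

/-- All overgroups of Sylow `p`-subgroups are pronormal. -/
def SylOver (p : ℕ) (X : Type*) [Group X] : Prop :=
  ∀ K : Subgroup X, (∃ P : Sylow p X, (P : Subgroup X) ≤ K) → Cfsg.IsPronormal K

theorem T_le (A T : Subgroup G) (hT : ∃ P : Sylow p ↥A, (P : Subgroup ↥A).map A.subtype = T) :
    T ≤ A := by
  obtain ⟨P, rfl⟩ := hT
  exact Subgroup.map_subtype_le _

theorem T_isPGroup (A T : Subgroup G)
    (hT : ∃ P : Sylow p ↥A, (P : Subgroup ↥A).map A.subtype = T) : IsPGroup p T := by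
  obtain ⟨P, rfl⟩ := hT
  exact P.isPGroup'.map _

theorem T_card (A T : Subgroup G)
    (hT : ∃ P : Sylow p ↥A, (P : Subgroup ↥A).map A.subtype = T) :
    Nat.card T = p ^ (Nat.card A).factorization p := by
  obtain ⟨P, rfl⟩ := hT
  rw [← P.card_eq_multiplicity]
  exact (Nat.card_congr (Subgroup.equivMapOfInjective _ _ A.subtype_injective).toEquiv).symm

theorem T_not_dvd (A B : Subgroup G) (hB : B ≤ A) :
    ¬ p ^ ((Nat.card A).factorization p + 1) ∣ Nat.card B :=
  fun h => (Nat.pow_succ_factorization_not_dvd Nat.card_pos.ne' Fact.out)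
    (h.trans (Subgroup.card_dvd_of_le hB))

theorem inf_eq_T (A T : Subgroup G)
    (hT : ∃ P : Sylow p ↥A, (P : Subgroup ↥A).map A.subtype = T) (S : Subgroup G)
    (hS : IsPGroup p S) (hTS : T ≤ S) : S ⊓ A = T := by
  obtain ⟨P, rfl⟩ := hT
  have h1 : IsPGroup p ((S ⊓ A).subgroupOf A) :=
    (hS.to_le inf_le_left).comap_of_injective A.subtype A.subtype_injective
  have h2 : (P : Subgroup A) ≤ (S ⊓ A).subgroupOf A := by
    intro x hx
    rw [Subgroup.mem_subgroupOf]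
    exact ⟨hTS (Subgroup.mem_map_of_mem _ hx), x.2⟩
  have h3 : (S ⊓ A).subgroupOf A = P := P.3 h1 h2
  rw [← h3, Subgroup.map_subgroupOf_eq_of_le inf_le_right]

theorem mem_normalizer_inf_normal (S A : Subgroup G) [A.Normal] (s : G) (hs : s ∈ S) :
    s ∈ Subgroup.normalizer ((S ⊓ A : Subgroup G) : Set G) := by
  rw [Subgroup.mem_normalizer_iff]
  intro x
  rw [Subgroup.mem_inf, Subgroup.mem_inf]
  constructor
  · rintro ⟨h1, h2⟩
    exact ⟨S.mul_mem (S.mul_mem hs h1) (S.inv_mem hs),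
      Subgroup.Normal.conj_mem inferInstance x h2 s⟩
  · rintro ⟨h1, h2⟩
    refine ⟨?_, ?_⟩
    · have : x = s⁻¹ * (s * x * s⁻¹) * s := by group
      rw [this]
      exact S.mul_mem (S.mul_mem (S.inv_mem hs) h1) hs
    · have : x = s⁻¹ * (s * x * s⁻¹) * s⁻¹⁻¹ := by group
      rw [this]
      exact Subgroup.Normal.conj_mem inferInstance _ h2 s⁻¹

theorem le_normalizer_T (A T : Subgroup G) [A.Normal]
    (hT : ∃ P : Sylow p ↥A, (P : Subgroup ↥A).map A.subtype = T) (S : Subgroup G)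
    (hS : IsPGroup p S) (hTS : T ≤ S) : S ≤ Subgroup.normalizer (T : Set G) := by
  have h := inf_eq_T A T hT S hS hTS
  intro s hs
  rw [← h]
  exact mem_normalizer_inf_normal S A s hs

theorem exists_conj_T (A T : Subgroup G)
    (hT : ∃ P : Sylow p ↥A, (P : Subgroup ↥A).map A.subtype = T) (B : Subgroup G) (hBA : B ≤ A)
    (hTB : T ≤ B) (g : G) (hg : cj(g, B) = B) : ∃ b ∈ B, cj(g, T) = cj(b, T) := by
  have h2 : cj(g, T) ≤ B := by
    rw [← hg]
    exact Subgroup.map_mono hTB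
  obtain ⟨x, hx, hxT⟩ := Cfsg.Agent.Lib.Helper1.exists_conj_of_card_eq_pow p hTB h2 _
    (T_card A T hT) (by rw [card_cj, T_card A T hT]) (T_not_dvd A B hBA)
  exact ⟨x, hx, hxT.symm⟩

theorem frattini_T (A T : Subgroup G) [A.Normal]
    (hT : ∃ P : Sylow p ↥A, (P : Subgroup ↥A).map A.subtype = T) (H : Subgroup G) (hTH : T ≤ H) :
    H = (H ⊓ A) ⊔ (H ⊓ Subgroup.normalizer (T : Set G)) := by
  apply le_antisymm
  · intro h hh
    have hB : cj(h, H ⊓ A) = H ⊓ A :=
      cj_of_mem_normalizer _ _ (mem_normalizer_inf_normal H A h hh)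
    obtain ⟨b, hb, hbT⟩ := exists_conj_T A T hT (H ⊓ A) inf_le_right
      (le_inf hTH (T_le A T hT)) h hB
    have hn := mem_normalizer_of_cj_eq T h b hbT
    have : h = b * (b⁻¹ * h) := by group
    rw [this]
    exact Subgroup.mul_mem _ (Subgroup.mem_sup_left hb)
      (Subgroup.mem_sup_right ⟨H.mul_mem (H.inv_mem hb.1) hh, hn⟩)
  · exact sup_le inf_le_left inf_le_left

/-- Core step: conjugates by elements of `A`. -/
theorem core_pron (A : Subgroup G) [A.Normal] (T : Subgroup G)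
    (hT : ∃ P : Sylow p ↥A, (P : Subgroup ↥A).map A.subtype = T)
    [hTn : (T.subgroupOf (Subgroup.normalizer (T : Set G))).Normal]
    (hA : SylOver p ↥A)
    (hN : SylOver p (↥(Subgroup.normalizer (T : Set G)) ⧸
      T.subgroupOf (Subgroup.normalizer (T : Set G))))
    (H : Subgroup G) (S : Sylow p G) (hSH : (S : Subgroup G) ≤ H) (hTS : T ≤ S)
    (a : G) (ha : a ∈ A) : ∃ x ∈ H ⊔ cj(a, H), cj(a, H) = cj(x, H) := by
  have hTA := T_le A T hT
  have hTH : T ≤ H := hTS.trans hSH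
  have hTB : T ≤ H ⊓ A := le_inf hTH hTA
  have hBpron : Cfsg.IsPronormal ((H ⊓ A).subgroupOf A) := by
    obtain ⟨P, hP⟩ := hT
    apply hA _ ⟨P, ?_⟩
    intro x hx
    rw [Subgroup.mem_subgroupOf]
    apply hTB
    rw [← hP]
    exact Subgroup.mem_map_of_mem _ hx
  obtain ⟨y, hy, hyB⟩ := pron_of_subgroupOf A (H ⊓ A) inf_le_right hBpron a ha
  have hyH : y ∈ H ⊔ cj(a, H) :=
    (sup_le_sup inf_le_left (Subgroup.map_mono inf_le_left)) hy
  have hyA : y ∈ A := (sup_le inf_le_right (cj_le_of_mem _ A a ha inf_le_right)) hy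
  apply pron_chain H a y (y⁻¹ * a) (by group) hyH
  have ha₁B : y⁻¹ * a ∈ Subgroup.normalizer ((H ⊓ A : Subgroup G) : Set G) :=
    mem_normalizer_of_cj_eq _ a y hyB
  obtain ⟨b, hb, hbT⟩ := exists_conj_T A T hT (H ⊓ A) inf_le_right hTB (y⁻¹ * a)
    (cj_of_mem_normalizer _ _ ha₁B)
  apply pron_chain H (y⁻¹ * a) b (b⁻¹ * (y⁻¹ * a)) (by group) (Subgroup.mem_sup_left hb.1)
  obtain ⟨a₂, ha₂⟩ : ∃ a₂ : G, a₂ = b⁻¹ * (y⁻¹ * a) := ⟨_, rfl⟩
  rw [← ha₂]
  have ha₂T : a₂ ∈ Subgroup.normalizer (T : Set G) := by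
    rw [ha₂]
    exact mem_normalizer_of_cj_eq T _ b hbT
  have ha₂B : a₂ ∈ Subgroup.normalizer ((H ⊓ A : Subgroup G) : Set G) := by
    rw [ha₂]
    exact Subgroup.mul_mem _ (Subgroup.inv_mem _ (Subgroup.le_normalizer hb)) ha₁B
  have hSN : (S : Subgroup G) ≤ Subgroup.normalizer (T : Set G) :=
    le_normalizer_T A T hT S S.isPGroup' hTS
  obtain ⟨H₁, hH₁⟩ : ∃ H₁ : Subgroup G, H₁ = H ⊓ Subgroup.normalizer (T : Set G) := ⟨_, rfl⟩
  have hH₁H : H₁ ≤ H := by
    rw [hH₁]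
    exact inf_le_left
  have hH₁N : H₁ ≤ Subgroup.normalizer (T : Set G) := by
    rw [hH₁]
    exact inf_le_right
  have hTH₁ : T ≤ H₁ := by
    rw [hH₁]
    exact le_inf hTH Subgroup.le_normalizer
  have hSH₁ : (S : Subgroup G) ≤ H₁ := by
    rw [hH₁]
    exact le_inf hSH hSN
  have hK : Cfsg.IsPronormal ((H₁.subgroupOf (Subgroup.normalizer (T : Set G))).map
      (QuotientGroup.mk' (T.subgroupOf (Subgroup.normalizer (T : Set G))))) := by
    apply hN _ ⟨Sylow.mapSurjective (QuotientGroup.mk'_surjective _) (S.subtype hSN), ?_⟩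
    rw [Sylow.coe_mapSurjective, Sylow.coe_subtype]
    exact Subgroup.map_mono (Subgroup.comap_mono hSH₁)
  have hH₁pron : Cfsg.IsPronormal (H₁.subgroupOf (Subgroup.normalizer (T : Set G))) := by
    apply isPronormal_of_map (QuotientGroup.mk' (T.subgroupOf (Subgroup.normalizer (T : Set G))))
      _ _ hK
    rw [QuotientGroup.ker_mk']
    exact Subgroup.comap_mono hTH₁
  obtain ⟨z, hz, hzH₁⟩ := pron_of_subgroupOf (Subgroup.normalizer (T : Set G)) H₁ hH₁N hH₁pron
    a₂ ha₂T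
  have hHB : H ≤ Subgroup.normalizer ((H ⊓ A : Subgroup G) : Set G) :=
    fun h hh => mem_normalizer_inf_normal H A h hh
  have hzB : z ∈ Subgroup.normalizer ((H ⊓ A : Subgroup G) : Set G) :=
    (sup_le (hH₁H.trans hHB) (cj_le_of_mem _ _ a₂ ha₂B (hH₁H.trans hHB))) hz
  have hzH : z ∈ H ⊔ cj(a₂, H) := (sup_le_sup hH₁H (Subgroup.map_mono hH₁H)) hz
  refine ⟨z, hzH, ?_⟩
  have hfr : H = (H ⊓ A) ⊔ H₁ := by
    rw [hH₁]
    exact frattini_T A T hT H hTH
  calc cj(a₂, H) = cj(a₂, (H ⊓ A) ⊔ H₁) := by rw [← hfr]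
    _ = cj(a₂, H ⊓ A) ⊔ cj(a₂, H₁) := Subgroup.map_sup _ _ _
    _ = (H ⊓ A) ⊔ cj(z, H₁) := by rw [cj_of_mem_normalizer _ _ ha₂B, hzH₁]
    _ = cj(z, H ⊓ A) ⊔ cj(z, H₁) := by rw [cj_of_mem_normalizer _ _ hzB]
    _ = cj(z, (H ⊓ A) ⊔ H₁) := (Subgroup.map_sup _ _ _).symm
    _ = cj(z, H) := by rw [← hfr]

/-- If overgroups of Sylow subgroups are pronormal in `G`, then so they are in `N_G(T)/T`. -/
theorem sylOver_quot_of (A : Subgroup G) [A.Normal] (T : Subgroup G)
    (hT : ∃ P : Sylow p ↥A, (P : Subgroup ↥A).map A.subtype = T)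
    [hTn : (T.subgroupOf (Subgroup.normalizer (T : Set G))).Normal]
    (hG : SylOver p G) :
    SylOver p (↥(Subgroup.normalizer (T : Set G)) ⧸
      T.subgroupOf (Subgroup.normalizer (T : Set G))) := by
  rintro Kb ⟨Pb, hPb⟩
  obtain ⟨π, hπ⟩ : ∃ π : ↥(Subgroup.normalizer (T : Set G)) →*
      ↥(Subgroup.normalizer (T : Set G)) ⧸ T.subgroupOf (Subgroup.normalizer (T : Set G)),
      π = QuotientGroup.mk' (T.subgroupOf (Subgroup.normalizer (T : Set G))) := ⟨_, rfl⟩
  have hπs : Function.Surjective π := by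
    rw [hπ]
    exact QuotientGroup.mk'_surjective _
  have hker : π.ker = T.subgroupOf (Subgroup.normalizer (T : Set G)) := by
    rw [hπ]
    exact QuotientGroup.ker_mk' _
  have hKpron : Cfsg.IsPronormal ((Kb.comap π).map (Subgroup.normalizer (T : Set G)).subtype) := by
    apply hG
    have hP₀ : IsPGroup p ((Pb : Subgroup _).comap π) :=
      Pb.isPGroup'.comap_of_ker_isPGroup π (by
        rw [hker]
        exact (T_isPGroup A T hT).comap_of_injective _ (Subgroup.subtype_injective _))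
    have hP₀' : IsPGroup p (((Pb : Subgroup _).comap π).map
        (Subgroup.normalizer (T : Set G)).subtype) := hP₀.map _
    obtain ⟨S₁, hS₁⟩ := hP₀'.exists_le_sylow
    refine ⟨S₁, ?_⟩
    have hTS₁ : T ≤ S₁ := by
      intro t ht
      apply hS₁
      refine ⟨⟨t, Subgroup.le_normalizer ht⟩, ?_, rfl⟩
      have h1 : π ⟨t, Subgroup.le_normalizer ht⟩ = 1 := by
        rw [← MonoidHom.mem_ker, hker]
        exact ht
      show π ⟨t, Subgroup.le_normalizer ht⟩ ∈ (Pb : Subgroup _)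
      rw [h1]
      exact Subgroup.one_mem _
    have hS₁N : (S₁ : Subgroup G) ≤ Subgroup.normalizer (T : Set G) :=
      le_normalizer_T A T hT S₁ S₁.isPGroup' hTS₁
    have h1 : IsPGroup p (((S₁ : Subgroup G).subgroupOf (Subgroup.normalizer (T : Set G))).map π) :=
      (S₁.isPGroup'.comap_of_injective _ (Subgroup.subtype_injective _)).map π
    have h2 : (Pb : Subgroup _) ≤
        ((S₁ : Subgroup G).subgroupOf (Subgroup.normalizer (T : Set G))).map π := by
      intro q hq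
      obtain ⟨n, rfl⟩ := hπs q
      refine ⟨n, ?_, rfl⟩
      show (n : G) ∈ (S₁ : Subgroup G)
      exact hS₁ ⟨n, hq, rfl⟩
    have h3 := Pb.3 h1 h2
    intro s hs
    refine ⟨⟨s, hS₁N hs⟩, ?_, rfl⟩
    show π ⟨s, hS₁N hs⟩ ∈ Kb
    apply hPb
    rw [← h3]
    exact Subgroup.mem_map_of_mem π (show (⟨s, hS₁N hs⟩ : ↥(Subgroup.normalizer (T : Set G))) ∈
      (S₁ : Subgroup G).subgroupOf (Subgroup.normalizer (T : Set G)) from hs)
  have h4 := isPronormal_subgroupOf (Subgroup.normalizer (T : Set G)) _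
    (Subgroup.map_subtype_le _) hKpron
  have h5 : ((Kb.comap π).map (Subgroup.normalizer (T : Set G)).subtype).subgroupOf
      (Subgroup.normalizer (T : Set G)) = Kb.comap π :=
    Subgroup.comap_map_eq_self_of_injective (Subgroup.subtype_injective _) _
  rw [h5] at h4
  have h6 := isPronormal_map π hπs _ h4
  rwa [Subgroup.map_comap_eq_self_of_surjective hπs] at h6

/-- Conjugating an overgroup of a Sylow subgroup so that the Sylow subgroup contains `T`. -/
theorem exists_conj_over (A T : Subgroup G)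
    (hT : ∃ P : Sylow p ↥A, (P : Subgroup ↥A).map A.subtype = T) (K : Subgroup G)
    (P : Sylow p G) (hPK : (P : Subgroup G) ≤ K) :
    ∃ (c : G) (S : Sylow p G), (S : Subgroup G) ≤ cj(c, K) ∧ T ≤ S := by
  obtain ⟨c, hc⟩ := exists_conj_mem_sylow P T (T_isPGroup A T hT)
  refine ⟨c⁻¹, c⁻¹ • P, ?_, ?_⟩
  · intro x hx
    rw [mem_sylow_smul_iff] at hx
    rw [mem_cj]
    exact hPK hx
  · intro t ht
    rw [mem_sylow_smul_iff]
    have h1 := hc t ht
    rw [inv_inv]
    exact h1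

theorem isPronormal_of_cj (K : Subgroup G) (c : G) (h : Cfsg.IsPronormal (cj(c, K))) :
    Cfsg.IsPronormal K := by
  have h1 := isPronormal_cj _ c⁻¹ h
  rwa [← cj_mul, inv_mul_cancel, cj_one] at h1

end sylT

end Cfsg.Agent.Lib.Helper90
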