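-- Counting Sylow subgroups: multiplicativity lemmas (M. Hall).
import Mathlib
import Cfsg.Agent.Lib.Helper1.Tools

set_option autoImplicit false

namespace Cfsg.Agent.Lib.Helper90

open Subgroup
open scoped Pointwise
open Cfsg.Agent.Lib.Helper1

section
variable {G : Type*} [Group G]

/-- product formula when `A` normalizes `B`. -/
theorem card_sup_mul_card_inf_of_le_normalizer {A B : Subgroup G} (h : A ≤ normalizer (B : Set G)) :
    Nat.card (A ⊔ B : Subgroup G) * Nat.card (A ⊓ B : Subgroup G) = Nat.card A * Nat.card B := by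
  have hB : B ≤ normalizer (B : Set G) := le_normalizer
  have hn : (B.subgroupOf (normalizer (B : Set G))).Normal := normal_in_normalizer
  have key := card_sup_mul_card_inf (B.subgroupOf (normalizer (B : Set G)))
    (A.subgroupOf (normalizer (B : Set G)))
  have h1 : B.subgroupOf (normalizer (B : Set G)) ⊓ A.subgroupOf (normalizer (B : Set G))
      = (B ⊓ A).subgroupOf (normalizer (B : Set G)) := rfl
  rw [← subgroupOf_sup hB h, h1, card_subgroupOf_of_le (sup_le hB h),
    card_subgroupOf_of_le (inf_le_left.trans hB), card_subgroupOf_of_le hB,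
    card_subgroupOf_of_le h] at key
  rw [sup_comm, inf_comm, key, mul_comm]

/-- second isomorphism theorem as an index identity, for `A` normalizing `B`. -/
theorem relIndex_sup_of_le_normalizer [Finite G] {A B : Subgroup G}
    (h : A ≤ normalizer (B : Set G)) : A.relIndex (A ⊔ B) = A.relIndex B := by
  have h1 : Nat.card (A ⊔ B : Subgroup G) = Nat.card A * A.relIndex (A ⊔ B) :=
    card_eq_card_mul_relIndex le_sup_left
  have h2 : Nat.card B = Nat.card (A ⊓ B : Subgroup G) * (A ⊓ B).relIndex B :=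
    card_eq_card_mul_relIndex inf_le_right
  rw [inf_relIndex_right] at h2
  have h3 := card_sup_mul_card_inf_of_le_normalizer h
  rw [h1] at h3
  have h4 : Nat.card A * A.relIndex (A ⊔ B) * Nat.card (A ⊓ B : Subgroup G)
      = Nat.card A * (Nat.card (A ⊓ B : Subgroup G) * A.relIndex B) := by
    rw [h3]
    congr 1
  have hApos : 0 < Nat.card A := Nat.card_pos
  have hIpos : 0 < Nat.card (A ⊓ B : Subgroup G) := Nat.card_pos
  have h5 : Nat.card A * Nat.card (A ⊓ B : Subgroup G) * A.relIndex (A ⊔ B)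
      = Nat.card A * Nat.card (A ⊓ B : Subgroup G) * A.relIndex B := by
    calc Nat.card A * Nat.card (A ⊓ B : Subgroup G) * A.relIndex (A ⊔ B)
        = Nat.card A * A.relIndex (A ⊔ B) * Nat.card (A ⊓ B : Subgroup G) := by ring
      _ = Nat.card A * (Nat.card (A ⊓ B : Subgroup G) * A.relIndex B) := h4
      _ = _ := by ring
  exact Nat.eq_of_mul_eq_mul_left (Nat.mul_pos hApos hIpos) h5

variable {p : ℕ} [Fact p.Prime] [Finite G]

/-- the number of Sylow `p`-subgroups of a subgroup `H` containing the Sylow subgroup `P`. -/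
theorem card_sylow_subgroup (P : Sylow p G) {H : Subgroup G} (hPH : (P : Subgroup G) ≤ H) :
    Nat.card (Sylow p H) = (normalizer ((P : Subgroup G) : Set G)).relIndex H := by
  rw [Sylow.card_eq_index_normalizer (P.subtype hPH)]
  show (normalizer (((P.subtype hPH : Sylow p H) : Subgroup H) : Set H)).index = _
  rw [Sylow.coe_subtype, ← subgroupOf_normalizer_eq hPH]
  rfl

/-- the number of Sylow `p`-subgroups of a quotient. -/
theorem card_sylow_quotient (P : Sylow p G) (N : Subgroup G) [N.Normal] :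
    Nat.card (Sylow p (G ⧸ N)) = (normalizer (((P : Subgroup G) ⊔ N : Subgroup G) : Set G)).index := by
  have hsurj := QuotientGroup.mk'_surjective N
  rw [Sylow.card_eq_index_normalizer (P.mapSurjective hsurj)]
  show (normalizer (((P.mapSurjective hsurj : Sylow p (G ⧸ N)) : Subgroup (G ⧸ N)) :
    Set (G ⧸ N))).index = _
  rw [Sylow.coe_mapSurjective,
    ← index_comap_of_surjective _ hsurj, comap_normalizer_eq_of_surjective _ hsurj,
    comap_map_eq, QuotientGroup.ker_mk']

/-- Frattini argument for `P ⊔ N`. -/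
theorem normalizer_sup_le (P : Sylow p G) (N : Subgroup G) [N.Normal] :
    normalizer (((P : Subgroup G) ⊔ N : Subgroup G) : Set G)
      ≤ normalizer ((P : Subgroup G) : Set G) ⊔ ((P : Subgroup G) ⊔ N) := by
  intro k hk
  have hPH : (P : Subgroup G) ≤ (P : Subgroup G) ⊔ N := le_sup_left
  have hkP : ((k • P : Sylow p G) : Subgroup G) ≤ (P : Subgroup G) ⊔ N := by
    intro x hx
    rw [Sylow.coe_subgroup_smul, mem_pointwise_smul_iff_inv_smul_mem] at hx
    have h1 : k⁻¹ * x * k ∈ (P : Subgroup G) ⊔ N := hPH (by simpa [MulAut.smul_def] using hx)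
    have h2 := (mem_normalizer_iff.mp hk (k⁻¹ * x * k)).mp h1
    have h3 : k * (k⁻¹ * x * k) * k⁻¹ = x := by group
    rwa [h3] at h2
  obtain ⟨h, hh⟩ := MulAction.exists_smul_eq ((P : Subgroup G) ⊔ N : Subgroup G)
    (P.subtype hPH) ((k • P).subtype hkP)
  rw [Sylow.smul_subtype] at hh
  have hh2 : h • P = k • P := Sylow.subtype_injective hh
  have hh3 : ((h : G)⁻¹ * k) • P = P := by
    rw [mul_smul, ← hh2]
    show (h : G)⁻¹ • ((h : G) • P) = P
    rw [inv_smul_smul]
  have hh4 : (h : G)⁻¹ * k ∈ normalizer ((P : Subgroup G) : Set G) :=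
    Sylow.smul_eq_iff_mem_normalizer.mp hh3
  have : k = (h : G) * ((h : G)⁻¹ * k) := by group
  rw [this, sup_comm]
  exact mul_mem_sup h.2 hh4

/-- **M. Hall's first reduction**: `n_p(G) = n_p(G/N) * n_p(PN)`. -/
theorem card_sylow_eq_quotient_mul (P : Sylow p G) (N : Subgroup G) [N.Normal] :
    Nat.card (Sylow p G) = Nat.card (Sylow p (G ⧸ N)) *
      Nat.card (Sylow p ((P : Subgroup G) ⊔ N : Subgroup G)) := by
  have hNP : normalizer ((P : Subgroup G) : Set G) ≤
      normalizer (((P : Subgroup G) ⊔ N : Subgroup G) : Set G) := by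
    intro g hg
    apply mem_normalizer_iff_map_conj_eq.mpr
    show MulAut.conj g • ((P : Subgroup G) ⊔ N) = (P : Subgroup G) ⊔ N
    have h1 : MulAut.conj g • (P : Subgroup G) = P := mem_normalizer_iff_map_conj_eq.mp hg
    rw [smul_sup, Normal.conj_smul_eq_self g N, h1]
  have hK : normalizer (((P : Subgroup G) ⊔ N : Subgroup G) : Set G) =
      normalizer ((P : Subgroup G) : Set G) ⊔ ((P : Subgroup G) ⊔ N) :=
    le_antisymm (normalizer_sup_le P N) (sup_le hNP le_normalizer)
  rw [Sylow.card_eq_index_normalizer P, card_sylow_quotient P N, card_sylow_subgroup P le_sup_left]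
  show (normalizer ((P : Subgroup G) : Set G)).index = _
  rw [← relIndex_mul_index hNP, mul_comm]
  congr 1
  rw [hK]
  exact relIndex_sup_of_le_normalizer hNP

omit [Fact p.Prime] [Finite G] in
/-- a Sylow subgroup of a normal subgroup inside a Sylow subgroup of the group is the intersection. -/
theorem sylow_map_eq_inf (P : Sylow p G) (N : Subgroup G) [N.Normal] (Q : Sylow p N)
    (hQP : (Q : Subgroup N).map N.subtype ≤ P) :
    (Q : Subgroup N).map N.subtype = (P : Subgroup G) ⊓ N := by
  apply le_antisymm (le_inf hQP (map_subtype_le _))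
  have hp : IsPGroup p (((P : Subgroup G) ⊓ N).subgroupOf N) :=
    (P.isPGroup'.to_inf_left).comap_subtype
  have hle : (Q : Subgroup N) ≤ ((P : Subgroup G) ⊓ N).subgroupOf N := by
    intro x hx
    rw [mem_subgroupOf]
    exact le_inf hQP (map_subtype_le _) (mem_map_of_mem N.subtype hx)
  have h1 := Q.is_maximal' hp hle
  have h2 : (((P : Subgroup G) ⊓ N).subgroupOf N).map N.subtype = (P : Subgroup G) ⊓ N := by
    rw [subgroupOf_map_subtype, inf_assoc, inf_idem]
  rw [← h2, h1]

/-- **M. Hall's second reduction**: `n_p(G) = n_p(N) * n_p(N_G(P ∩ N))`. -/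
theorem card_sylow_eq_normal_mul (P : Sylow p G) (N : Subgroup G) [N.Normal] (Q : Sylow p N)
    (hQP : (Q : Subgroup N).map N.subtype ≤ P) :
    Nat.card (Sylow p G) = Nat.card (Sylow p N) *
      Nat.card (Sylow p (normalizer (((Q : Subgroup N).map N.subtype : Subgroup G) : Set G))) := by
  have hQ0 := sylow_map_eq_inf P N Q hQP
  have hNP : normalizer ((P : Subgroup G) : Set G) ≤
      normalizer (((Q : Subgroup N).map N.subtype : Subgroup G) : Set G) := by
    intro g hg
    apply mem_normalizer_iff_map_conj_eq.mpr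
    show MulAut.conj g • ((Q : Subgroup N).map N.subtype) = (Q : Subgroup N).map N.subtype
    have h1 : MulAut.conj g • (P : Subgroup G) = P := mem_normalizer_iff_map_conj_eq.mp hg
    rw [hQ0, smul_inf, Normal.conj_smul_eq_self g N, h1]
  have hPle : (P : Subgroup G) ≤
      normalizer (((Q : Subgroup N).map N.subtype : Subgroup G) : Set G) :=
    le_normalizer.trans hNP
  have e1 : Nat.card (Sylow p N) =
      (normalizer (((Q : Subgroup N).map N.subtype : Subgroup G) : Set G)).index := by
    rw [Sylow.card_eq_index_normalizer Q]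
    have h1 : ((Q : Subgroup N).map N.subtype).subgroupOf N = (Q : Subgroup N) :=
      comap_map_eq_self_of_injective N.subtype_injective _
    have h2 := subgroupOf_normalizer_eq (map_subtype_le (Q : Subgroup N))
    rw [h1] at h2
    show (normalizer ((Q : Subgroup N) : Set N)).index = _
    rw [← h2]
    show (normalizer (((Q : Subgroup N).map N.subtype : Subgroup G) : Set G)).relIndex N = _
    have h3 : normalizer (((Q : Subgroup N).map N.subtype : Subgroup G) : Set G) ≤
        normalizer (N : Set G) := by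
      have hN : normalizer (N : Set G) = ⊤ := normalizer_eq_top_iff.mpr inferInstance
      rw [hN]
      exact le_top
    rw [← relIndex_sup_of_le_normalizer h3, Sylow.normalizer_sup_eq_top Q, relIndex_top_right]
  rw [Sylow.card_eq_index_normalizer P, e1, card_sylow_subgroup P hPle]
  show (normalizer ((P : Subgroup G) : Set G)).index = _
  rw [← relIndex_mul_index hNP, mul_comm]

end

section invariant
variable {G : Type*} [Group G]

/-- conjugation action of a subgroup `P` on a subgroup `M` that it normalizes. -/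
@[instance_reducible]
def conjActOn (P M : Subgroup G) (h : P ≤ normalizer (M : Set G)) : MulDistribMulAction P M where
  smul x m := ⟨(x : G) * m * (x : G)⁻¹, (mem_normalizer_iff.mp (h x.2) m).mp m.2⟩
  one_smul m := Subtype.ext (by show ((1 : P) : G) * m * ((1 : P) : G)⁻¹ = m; simp)
  mul_smul x y m := Subtype.ext (by
    show ((x * y : P) : G) * m * ((x * y : P) : G)⁻¹ = (x : G) * ((y : G) * m * (y : G)⁻¹) * (x : G)⁻¹
    simp [mul_assoc])
  smul_mul x m n := Subtype.ext (by
    show (x : G) * ((m * n : M) : G) * (x : G)⁻¹ = ((x : G) * m * (x : G)⁻¹) * ((x : G) * n * (x : G)⁻¹)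
    simp [mul_assoc])
  smul_one x := Subtype.ext (by show (x : G) * ((1 : M) : G) * (x : G)⁻¹ = ((1 : M) : G); simp)

/-- **Coprime action, Sylow form**: if the `p`-group `P` normalizes `N` (of order prime to `p`) and a
`q`-subgroup `S ≤ N`, then `S` lies in a `P`-invariant Sylow `q`-subgroup of `N`. -/
theorem exists_invariant_sylow_ge [Finite G] {p q : ℕ} [Fact p.Prime] [Fact q.Prime]
    (P N S : Subgroup G) (hP : IsPGroup p P) (hPN : P ≤ normalizer (N : Set G))
    (hN : ¬ p ∣ Nat.card N) (hSN : S ≤ N) (hS : IsPGroup q S)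
    (hPS : P ≤ normalizer (S : Set G)) :
    ∃ Q : Subgroup G, S ≤ Q ∧ Q ≤ N ∧ P ≤ normalizer (Q : Set G) ∧
      Nat.card Q = q ^ (Nat.card N).factorization q := by
  have hq : q.Prime := Fact.out
  obtain ⟨Q, hSQ, hQmax⟩ := Finite.exists_le_maximal
    (p := fun T : Subgroup G => S ≤ T ∧ T ≤ N ∧ IsPGroup q T ∧ P ≤ normalizer (T : Set G))
    (a := S) ⟨le_rfl, hSN, hS, hPS⟩
  obtain ⟨-, hQN, hQq, hPQ⟩ := hQmax.1
  refine ⟨Q, hSQ, hQN, hPQ, ?_⟩
  -- `M = N_N(Q)`
  obtain ⟨M, hM⟩ : ∃ M : Subgroup G, M = N ⊓ normalizer (Q : Set G) := ⟨_, rfl⟩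
  have hMN : M ≤ N := hM ▸ inf_le_left
  have hMQ : M ≤ normalizer (Q : Set G) := hM ▸ inf_le_right
  have hQM : Q ≤ M := hM ▸ le_inf hQN le_normalizer
  have hPM : P ≤ normalizer (M : Set G) := by
    intro x hx
    apply mem_normalizer_iff_map_conj_eq.mpr
    show MulAut.conj x • M = M
    have h1 : MulAut.conj x • N = N := mem_normalizer_iff_map_conj_eq.mp (hPN hx)
    have h2 : MulAut.conj x • normalizer (Q : Set G) = normalizer (Q : Set G) :=
      mem_normalizer_iff_map_conj_eq.mp (le_normalizer (hPQ hx))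
    rw [hM, smul_inf, h1, h2]
  let _i := conjActOn P M hPM
  have hcard : ¬ p ∣ Nat.card (Sylow q M) := by
    intro hdvd
    obtain T₀ : Sylow q M := default
    exact hN (hdvd.trans ((T₀.card_dvd_index.trans (T₀ : Subgroup M).index_dvd_card).trans
      (card_dvd_of_le hMN)))
  obtain ⟨T₁, hT₁⟩ := IsPGroup.nonempty_fixed_point_of_prime_not_dvd_card hP (Sylow q M) hcard
  have hT₁' : ∀ x : P, x • T₁ = T₁ := hT₁
  -- `T`, the image of `T₁` in `G`
  obtain ⟨T, hT⟩ : ∃ T : Subgroup G, T = (T₁ : Subgroup M).map M.subtype := ⟨_, rfl⟩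
  have hTM : T ≤ M := hT ▸ map_subtype_le _
  have hPT : P ≤ normalizer (T : Set G) := by
    intro x hx
    apply mem_normalizer_fintype
    intro n hn
    rw [SetLike.mem_coe, hT] at hn ⊢
    obtain ⟨t, ht, rfl⟩ := hn
    have h1 : (⟨x, hx⟩ : P) • t ∈ ((⟨x, hx⟩ : P) • T₁ : Sylow q M) :=
      smul_mem_pointwise_smul t _ (T₁ : Subgroup M) ht
    rw [hT₁'] at h1
    exact mem_map_of_mem M.subtype h1
  have hQT : Q ≤ T := by
    have hn : (Q.subgroupOf M).Normal := normal_subgroupOf_of_le_normalizer hMQ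
    have hq' : IsPGroup q (Q.subgroupOf M) := hQq.comap_subtype
    have h1 : Q.subgroupOf M ≤ T₁ := IsPGroup.le_sylow_of_normal hq' T₁
    intro x hx
    rw [hT]
    exact ⟨⟨x, hQM hx⟩, h1 (mem_subgroupOf.mpr hx), rfl⟩
  have hTq : IsPGroup q T := hT ▸ T₁.isPGroup'.map _
  have hTQ : T ≤ Q := hQmax.2 ⟨hSQ.trans hQT, hTM.trans hMN, hTq, hPT⟩ hQT
  have hQeq : Q = T := le_antisymm hQT hTQ
  have hcQ : Nat.card Q = q ^ (Nat.card M).factorization q := by
    rw [hQeq, hT, card_map_of_injective M.subtype_injective]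
    exact T₁.card_eq_multiplicity
  have hNpos : Nat.card N ≠ 0 := Nat.card_pos.ne'
  have hMpos : Nat.card M ≠ 0 := Nat.card_pos.ne'
  have hle : (Nat.card M).factorization q ≤ (Nat.card N).factorization q := by
    rw [← hq.pow_dvd_iff_le_factorization hNpos, ← hcQ]
    exact card_dvd_of_le hQN
  rcases eq_or_lt_of_le hle with heq | hlt
  · rw [hcQ, heq]
  · exfalso
    have hdvd : q ^ ((Nat.card M).factorization q + 1) ∣ Nat.card N :=
      (hq.pow_dvd_iff_le_factorization hNpos).mpr hlt
    have hc' : Nat.card (Q.subgroupOf N) = q ^ (Nat.card M).factorization q := by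
      rw [card_subgroupOf_of_le hQN, hcQ]
    have h1 := Sylow.prime_pow_dvd_card_normalizer hdvd hc'
    rw [← subgroupOf_normalizer_eq hQN, ← inf_subgroupOf_right,
      card_subgroupOf_of_le inf_le_right, inf_comm, ← hM] at h1
    exact Nat.pow_succ_factorization_not_dvd hMpos hq h1

end invariant

end Cfsg.Agent.Lib.Helper90
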